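import Cfsg.Agent.Pres.UniUn
import Cfsg.Agent.Pres.Gen3

/-! `SU(n, q)` is generated by two elements. -/

set_option autoImplicit false

namespace Cfsg.Agent.Pres

open Subgroup _root_.Cfsg.Agent.Classical Matrix Sum
open scoped MatrixGroups

variable {F : Type*} [Field F] {q n : ℕ} [Fintype F] [hF : Fact (Fintype.card F = q ^ 2)]

local notation "ℋ" => hermForm _ _

/-- A signed cyclic frame with a diagonal element. -/
structure CF (m : ℕ) (θ : F) (w h : SU n F q) (v : ℤ → Fin n → F) (z : Fin n → F) (κ : F) : Prop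
    extends UFrame m θ w v where
  θ0 : θ ≠ 0
  zo : ∀ i, ℋ q z (v i) = 0
  sp : ∀ S : Submodule F (Fin n → F), (∀ i : ℤ, -m < i → i ≤ m → v i ∈ S) → z ∈ S → ∀ x, x ∈ S
  wz : w • z = z
  hz : h • z = κ • z
  dg : ∀ i, ∃ c : F, h • v i = c • v i

namespace CF

variable {m : ℕ} {θ κ : F} {w h : SU n F q} {v : ℤ → Fin n → F} {z : Fin n → F} (f : CF m θ w h v z κ)
  {H : Subgroup (SU n F q)}
include f

theorem top (hm : 2 ≤ m) (hn : 4 ≤ n) (hw : w ∈ H) (h1 : ∀ a, uS q (v (m - 1)) (v 0) a ∈ H)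
    (h2 : ∀ a : F, ZE H (v 0) (a • z)) : H = ⊤ := by
  have k : ∀ d : ℕ, d ≤ m - 1 → ∀ a, uS q (v d) (v 0) a ∈ H := fun d hd => by
    induction hd using Nat.decreasingInduction with
    | self => intro a; convert h1 a; omega
    | of_succ d hd ih =>
      intro a
      have o := uS_smul (f.o d (d + 1 - m))
      have := uS_rule (r := 1) (u := v 0) (w := v (d + 1)) (z := v d) (c := θ) (a := -a ^ q / θ ^ q)
        (f.shS hw (d + 1 - m) (h1 1) (i' := d) (j' := d + 1 - m)) (by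
          rw [one_mul, uS_comm (f.o _ _)]; exact f.shS hw 0 (ih _)) (by simp)
        (by simp [o, (f.o 0 d).2, (f.o 0 (d + 1 - m)).2])
        (by simp [o, (f.o (d + 1) d).2, f.pair (d + 1 - m) (d + 1) (by omega)]) (f.o _ _) (f.o _ _) (f.o _ _)
      rwa [div_mul_cancel₀ _ (pow_ne_zero _ f.θ0), ← uS_comm (f.o _ _)] at this
  have h3 : ∀ j : ℤ, -m < j → j < m → ∀ a, uS q (v 0) (v j) a ∈ H := fun j h h' a => by
    rcases le_total j 0 with e | e
    · exact f.shS hw j (k (-j).toNat (by omega) a)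
    · rw [uS_comm (f.o _ _)]; exact f.shS hw 0 (k j.toNat (by omega) _)
  have e0 : v 0 ≠ 0 := fun h => f.θ0 (by rw [← f.pair 0 m (by omega), h, herm_zero_right])
  have e1 := f.pair 0 m (by omega)
  refine su_top (.inr hn) e0 (f.o 0 0).1 (.of_ZE (by omega) e0 (f.o 0 0).1 fun x hx => ?_)
    (zpow_mem hw m) (by rw [f.act, f.pair 0 _ rfl]; exact f.θ0)
  let S : Submodule F (Fin n → F) :=
    { carrier := {x | ∀ a : F, ZE H (v 0) (a • (x - (ℋ q x (v 0) / θ) • v m))}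
      zero_mem' := fun a => by simpa using ZE.zero (f.o 0 0).1
      add_mem' := fun {x y} a b c => by convert (a c).add (b c) using 1; simp [add_div]; module
      smul_mem' := fun c x a d => by convert a (d * c) using 1; simp [mul_div_assoc]; module }
  have := f.sp S (fun i a b c => ?_) (fun a => by simpa [f.zo] using h2 a) x 1
  · simpa [hx] using this
  rcases b.eq_or_lt with rfl | b
  · simpa [e1, f.θ0] using ZE.zero (f.o 0 0).1
  simpa [(f.o i 0).2] using ZE.of_uS (f.o _ _) (h3 _ a b _)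

theorem ext {g g' : SU n F q} (h1 : ∀ i, g • v i = g' • v i) (h2 : g • z = g' • z) : g = g' :=
  su_ext (f.sp (LinearMap.eqLocus (mulVecLin g.1.1) (mulVecLin g'.1.1)) (fun i _ _ => h1 i) h2)

theorem conj (k i : ℤ) {c : F} (e : h • v (i - k) = c • v (i - k)) :
    (w ^ k * h * (w ^ k)⁻¹) • v i = c • v i ∧ (w ^ k * h * (w ^ k)⁻¹) • z = κ • z := by
  have : ∀ k : ℤ, w ^ k • z = z := fun k => (zpowers_le (H := MulAction.stabilizer _ z)).2 f.wz ⟨k, rfl⟩
  simp only [mul_smul, ← _root_.zpow_neg, f.act, this, f.hz, su_smul_smul, ← sub_eq_add_neg, e, sub_add_cancel,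
    and_self]

theorem comm (k l : ℤ) : Commute (w ^ k * h * (w ^ k)⁻¹) (w ^ l * h * (w ^ l)⁻¹) := f.ext (fun i => by
  obtain ⟨c, e⟩ := f.dg (i - k)
  obtain ⟨d, e'⟩ := f.dg (i - l)
  rw [mul_smul, mul_smul _ (w ^ k * h * _)]
  simp only [su_smul_smul, (f.conj k i e).1, (f.conj l i e').1, smul_comm c]) (by
    obtain ⟨c, e⟩ := f.dg (0 - k)
    obtain ⟨d, e'⟩ := f.dg (0 - l)
    rw [mul_smul, mul_smul _ (w ^ k * h * _)]
    simp only [su_smul_smul, (f.conj k 0 e).2, (f.conj l 0 e').2])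

omit f in
theorem conj_S {g : SU n F q} {u u' : Fin n → F} (o : Orth q u u') {c d : F} (e : g • u = c • u)
    (e' : g • u' = d • u') (a : F) : g * uS q u u' a * g⁻¹ = uS q u u' (c * d ^ q * a) := by
  have o' : Orth q (c • u) (d • u') := ⟨by simp [o.1], by simp [o.2], by simp [o.3], by simp [o.4]⟩
  rw [conj_uS, e, e']
  exact su_ext fun x => by simp [uS_smul o, uS_smul o', mul_pow, pow_q_q]; module

omit f in
theorem conj_E {g : SU n F q} {u : Fin n → F} {c d μ : F} (o : EOk q u z μ) (e : g • u = c • u)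
    (e' : g • z = d • z) : EOk q u ((c ^ q * d) • z) (μ * (c * c ^ q)) ∧
      g * uE q u z μ * g⁻¹ = uE q u ((c ^ q * d) • z) (μ * (c * c ^ q)) := by
  have := (eOk_smul g).2 o
  rw [e, e'] at this
  rw [conj_uE, e, e', uE_smul_left o.1 this, mul_smul]
  exact ⟨this.of_smul o.1, rfl⟩

theorem two (hm : 2 ≤ m) (hn : 4 ≤ n) {μ : F} (o : EOk q (v 0) z μ) {d0 d1 d2 d3 : F} (e0 : h • v 0 = d0 • v 0)
    (e1 : h • v 1 = d1 • v 1) (e2 : h • v (m - 2) = d2 • v (m - 2)) (e3 : h • v (m - 1) = d3 • v (m - 1))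
    {k : ℕ} (hk : Commute (h ^ k) (uE q (v 0) z μ)) (a1 : (d3 * d0 ^ q) ^ k ≠ 1) (a2 : GenA (d3 * d0 ^ q))
    (a3 : d2 ≠ d3) (hz : z = 0 ∧ μ = 0 ∨ ℋ q z z = 1 ∧ κ ≠ d3 ∧ (d0 ^ q * κ ≠ 1 ∧ GenA (d0 ^ q * κ) ∨
      k = 1 ∧ d1 ^ q * κ ≠ 1 ∧ GenA (d1 ^ q * κ))) :
    closure {h, uS q (v (m - 1)) (v 0) 1 * uE q (v 0) z μ * w} = ⊤ := by
  set H := closure {h, uS q (v (m - 1)) (v 0) 1 * uE q (v 0) z μ * w}
  set y := uE q (v 0) z μ with hy
  have m1 : h ∈ H := subset_closure (.inl rfl)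
  have m2 : uS q (v (m - 1)) (v 0) 1 * y * w ∈ H := subset_closure (.inr rfl)
  have O := f.o (m - 1) 0
  obtain ⟨c, e4⟩ := f.dg (-1)
  have hc : d3 * c ^ q = 1 := by
    have := herm_su_smul h (v (m - 1)) (v (-1))
    rw [e3, e4, herm_smul_left, herm_smul_right, f.pair _ _ (by omega), ← mul_assoc] at this
    exact (mul_eq_right₀ f.θ0).1 this
  have c1 := f.conj 1 (m - 1) (by simpa [sub_sub, one_add_one_eq_two] using e2)
  have c2 := f.conj 1 0 (by simpa using e4)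
  have c3 := f.comm 0 1
  have c4 := f.comm (-1) 1
  have c5 := f.conj (-1) 0 (by simpa using e1)
  simp only [zpow_one, _root_.zpow_zero, inv_one, one_mul, mul_one, _root_.zpow_neg, inv_inv] at c1 c2 c3 c4 c5
  set h' := w * h * w⁻¹ with hh'
  have xy : ∀ a, Commute y (uS q (v (m - 1)) (v 0) a) := fun a => by
    rw [commute_iff_eq, ← mul_inv_eq_iff_eq_mul, conj_uS]
    simp [hy, uE_smul o, O.1, O.2, O.4, herm_eq_zero_comm.1 (f.zo _)]
  have x1 : ∀ a, uS q (v (m - 1)) (v 0) a ∈ H := by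
    have hx := conj_S O e3 e0
    have hk' : ∀ j : ℕ, ∀ a, h ^ j * uS q (v (m - 1)) (v 0) a * (h ^ j)⁻¹ =
        uS q (v (m - 1)) (v 0) ((d3 * d0 ^ q) ^ j * a) := fun j a => by
      induction j with
      | zero => simp
      | succ j ih => rw [pow_succ', pow_succ', mul_assoc (d3 * _), ← hx, ← ih]; group
    refine a2 (uS q (v (m - 1)) (v 0) · ∈ H) (by simp [uS_zero]) (fun s t x y => uS_add O s t ▸ mul_mem x y)
      (fun t x => hx t ▸ mul_mem (mul_mem m1 x) (inv_mem m1)) (((d3 * d0 ^ q) ^ k - 1) * (1 - d2 * c ^ q))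
      (mul_ne_zero (sub_ne_zero.2 a1) fun e => a3 (by linear_combination -d2 * hc - d3 * e)) ?_
    have m3 := mul_mem (mul_mem m2 m1) (inv_mem m2)
    have e : uS q (v (m - 1)) (v 0) 1 * y * w * h * (uS q (v (m - 1)) (v 0) 1 * y * w)⁻¹ =
        uS q (v (m - 1)) (v 0) (1 - d2 * c ^ q) * (y * h' * y⁻¹) := by
      rw [sub_eq_add_neg 1, uS_add O, mul_assoc _ _ (y * _ * _), mul_assoc y h', (xy _).symm.left_comm, ← mul_neg_one,
        ← conj_S O c1.1 c2.1, uS_neg O, mul_assoc _ h'⁻¹, inv_mul_cancel_left, mul_assoc h', ← (xy 1).inv_inv.eq, hh']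
      group
    rw [e] at m3
    convert mul_mem (mul_mem (mul_mem (pow_mem m1 k) m3) (inv_mem (pow_mem m1 k))) (inv_mem m3) using 1
    rw [sub_mul, one_mul, sub_eq_add_neg (_ * _), uS_add O, ← hk', uS_neg O, ← mul_assoc (h ^ k), mul_assoc _ (y * _ * _),
      ← ((hk.mul_right (c3.pow_left k)).mul_right hk.inv_right).inv_left.eq]
    group
  have m4 : y * w ∈ H := by simpa [mul_assoc] using mul_mem (inv_mem (x1 1)) m2
  have x2 : ∀ a : F, ZE H (v 0) (a • z) := by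
    rcases hz with ⟨rfl, -⟩ | ⟨-, b1, hz⟩
    · simpa using ZE.zero (f.o 0 0).1
    obtain ⟨g, mg, cg, l, eg, eg', b2, b3⟩ : ∃ g ∈ H, Commute g h' ∧ ∃ l : F, g • v 0 = l • v 0 ∧ g • z = κ • z ∧
        l ^ q * κ ≠ 1 ∧ GenA (l ^ q * κ) := by
      rcases hz with hz | ⟨rfl, hz⟩
      · exact ⟨h, m1, c3, d0, e0, f.hz, hz⟩
      refine ⟨_, ?_, c4, d1, c5.1, c5.2, hz⟩
      convert mul_mem (mul_mem (inv_mem m4) m1) m4 using 1
      rw [_root_.mul_inv_rev, mul_assoc w⁻¹ _ h, ← (show Commute h y from pow_one h ▸ hk).inv_right.eq]; group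
    refine b3 (fun a => ZE H (v 0) (a • z)) (by simpa using ZE.zero (f.o 0 0).1)
      (fun s t x y => add_smul s t z ▸ x.add y) (fun t ⟨ν, o', x⟩ => ?_) ((l ^ q * κ - 1) * (1 - c ^ q * κ))
      (mul_ne_zero (sub_ne_zero.2 b2) fun e => b1 (by linear_combination -κ * hc - d3 * e)) ?_
    · have := conj_E o' eg (d := κ) (by rw [su_smul_smul, eg', smul_comm])
      rw [smul_smul] at this
      exact ⟨_, this.1, this.2 ▸ mul_mem (mul_mem mg x) (inv_mem mg)⟩
    have k1 := conj_E o c2.1 c2.2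
    have k2 := o.add k1.1.neg
    have k3 := conj_E k2 eg (d := κ) (by rw [← sub_eq_add_neg, su_smul_sub, su_smul_smul, eg']; module)
    have m5 := mul_mem (mul_mem m4 m1) (inv_mem m4)
    rw [show ((l ^ q * κ - 1) * (1 - c ^ q * κ)) • z = (l ^ q * κ) • (z + -((c ^ q * κ) • z)) +
      -(z + -((c ^ q * κ) • z)) by module]
    refine ⟨_, k3.1.add k2.neg, ?_⟩
    have e : y * w * h * (y * w)⁻¹ = y * (h' * y * h'⁻¹)⁻¹ * h' := by rw [hh']; group
    rw [e, k1.2, uE_inv k1.1, uE_mul o k1.1.neg] at m5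
    convert mul_mem (mul_mem (mul_mem mg m5) (inv_mem mg)) (inv_mem m5) using 1
    rw [← mul_assoc g, mul_assoc _ h', ← cg.inv_left.eq, ← mul_assoc _ g⁻¹, k3.2, _root_.mul_inv_rev, mul_assoc _ h',
      mul_inv_cancel_left, uE_inv k2, uE_mul k3.1 k2.neg]
  have m5 : y ∈ H := by
    rcases hz with ⟨rfl, rfl⟩ | ⟨b1, -⟩
    · simp [hy, uE_zero]
    refine (one_smul F z ▸ x2 1).mem (fun c => ?_) μ
    by_cases k : EOk q (v 0) 0 c
    swap; · exact uE_not k ▸ one_mem H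
    obtain ⟨b, hb⟩ := exists_sub_pow_eq (c := c) (by simpa using k.3)
    simpa [b1, hb] using (x2 1).comm (x2 b)
  exact f.top hm hn (by simpa using mul_mem (inv_mem m5) m4) x1 x2

end CF

variable {k r : ℕ}

local notation "𝓘" => (Fin (k + 1) ⊕ Fin (k + 1)) ⊕ Fin r

theorem exists_cf (hn : n = 2 * (k + 1) + r) (hr : r ≤ 1) {κ : F} (hκ : κ * κ ^ q = 1) (D : ℕ → F)
    (D0 : ∀ i, D i ≠ 0) (hD : (∏ i ∈ Finset.range (k + 1), D i * (D i ^ q)⁻¹) * κ ^ r = 1) :
    ∃ (θ : F) (w h : SU n F q) (v : ℤ → Fin n → F) (z : Fin n → F), CF (k + 1) θ w h v z κ ∧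
      (∀ i : ℕ, i ≤ k → h • v i = D i • v i) ∧ ℋ q z z = r ∧ (r = 0 → z = 0) := by
  obtain ⟨θ, θ0, hθ⟩ := exists_trace_zero F q
  replace hθ : θ ^ q = -θ := by linear_combination hθ
  let p : Equiv.Perm 𝓘 := (Equiv.sumComm _ _).sumCongr 1
  let g : 𝓘 → F := Sum.elim (Sum.elim (fun _ => -θ) fun _ => θ) fun _ => 1
  have g0 : ∀ x, g x ≠ 0 := by rintro ((x | x) | x) <;> simp [g, θ0]
  let M : Equiv.Perm 𝓘 → (𝓘 → F) → Matrix 𝓘 𝓘 F := fun σ ε => σ⁻¹.permMatrix F * diagonal ε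
  have hM : ∀ σ ε x y, (M σ ε *ᵥ x) (σ y) = ε y * x y := fun σ ε x y => by
    simp [M, ← mulVec_mulVec, permMatrix_mulVec, mulVec_diagonal]
  have dM : ∀ σ ε, (M σ ε).det = Equiv.Perm.sign σ * ∏ x, ε x := fun σ ε => by simp [M]
  have fm : ∀ x y : 𝓘 → F, (x ⬝ᵥ (M p g)ᵀ *ᵥ fun j => y j ^ q) = ∑ i, x i * (g i * y (p i) ^ q) := fun x y => by
    simp [M, dotProduct, ← mulVec_mulVec, permMatrix_mulVec, mulVec_diagonal]
  obtain ⟨E, h1, h2⟩ := exists_model (F := F) (q := q) (n := n) (ι := 𝓘) (by simp; omega) (M p g)ᵀ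
    (by
      rintro ((i | i) | i) ((j | j) | j) <;>
        simp [M, p, g, zero_pow_q, Equiv.Perm.permMatrix, PEquiv.toMatrix_apply, eq_comm] <;>
        split_ifs <;> simp [zero_pow_q, neg_pow_q, hθ])
    (by rcases Int.units_eq_one_or (Equiv.Perm.sign p) with e | e <;> simp [dM, Finset.prod_eq_zero_iff, g0, e])
  let b : 𝓘 → Fin n → F := fun x => E (Pi.single x 1)
  have hb : ∀ x y, ℋ q (b x) (b y) = if y = p x then g x else 0 := fun x y => by
    rw [h1, fm, Finset.sum_eq_single x (fun i _ h => by simp [h]) (by simp)]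
    simp [Pi.single_apply, apply_ite (· ^ q), zero_pow_q, eq_comm]
  have mono : ∀ (σ : Equiv.Perm 𝓘) (ε : 𝓘 → F), (∀ x, σ (p x) = p (σ x)) → (∀ x, ε x * ε (p x) ^ q * g (σ x) = g x) →
      Equiv.Perm.sign σ * ∏ x, ε x = 1 → ∃ A : SU n F q, ∀ x, A • b x = ε x • b (σ x) := fun σ ε e1 e2 e3 => by
    obtain ⟨A, hA⟩ := h2 (M σ ε) ((dM σ ε).trans e3) fun x y => by
      rw [fm, fm, ← Equiv.sum_comp σ]
      exact Finset.sum_congr rfl fun i _ => by rw [← e1, hM, hM, ← e2 i, mul_pow]; ring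
    refine ⟨A, fun x => ?_⟩
    rw [hA, ← map_smul]; congr 1; ext y
    obtain ⟨y, rfl⟩ := σ.surjective y
    simp only [hM, Pi.single_apply, Pi.smul_apply, σ.injective.eq_iff]; split_ifs with e <;> simp [e]
  let ε : 𝓘 → F := fun x => if x = inl (inr (Fin.last k)) then -1 else 1
  have cs : ∀ i : Fin (k + 1), i = Fin.last k ∨ i ≠ Fin.last k ∧ ∃ j : Fin (k + 1), i.val + 1 = j :=
    fun i => (em _).imp_right fun h => ⟨h, ⟨i + 1, by have := Fin.val_lt_last h; omega⟩, rfl⟩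
  obtain ⟨w, hw⟩ := mono ((scy k).sumCongr 1) ε (by rintro (x | x) <;> simp [p, scy_swap]) (by
    rintro ((x | x) | x)
    · rcases cs x with rfl | ⟨h, j, e⟩
      exacts [by simp [scy_last, ε, p, g, neg_pow_q], by simp [scy_adj e, ε, p, g, h]]
    · rcases cs x with rfl | ⟨h, j, e⟩
      exacts [by simp [scy_last, ε, p, g], by simp [scy_adj e, ε, p, g, h]]
    simp [ε, p, g]) (by simp [ε, scy, Finset.prod_ite_eq', Equiv.Perm.sign_sumCongr])
  let d : 𝓘 → F := Sum.elim (Sum.elim (fun i => D i) fun i => (D i ^ q)⁻¹) fun _ => κ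
  obtain ⟨h, hh⟩ := mono 1 d (fun _ => rfl) (by rintro ((x | x) | x) <;> simp [d, p, g, D0, pow_q_q, hκ]) (by
    simpa [d, Fintype.prod_sum_type, Finset.prod_range, Finset.prod_mul_distrib] using hD)
  let v : ℤ → _ → F := fun i => w ^ i • b (inl (inl 0))
  have va : ∀ j k : ℤ, w ^ j • v k = v (k + j) := fun j k => by
    simp only [v, ← mul_smul, ← _root_.zpow_add, add_comm]
  have va' : ∀ k : ℤ, v (k + 1) = w • v k := fun k => by rw [← va, zpow_one]
  have v1 : ∀ i : Fin (k + 1), v i = b (inl (inl i)) := Fin.induction (by simp [v]) fun i ih => by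
    simp only [Fin.val_succ, Fin.val_castSucc, Nat.cast_succ] at ih ⊢
    simp [va', ih, hw, ε, (scy_adj (i := i.castSucc) (j := i.succ) rfl).1]
  have v2 : ∀ i : Fin (k + 1), v (k + 1 + i) = b (inl (inr i)) := Fin.induction (by
    simpa [va', hw, ε, scy_last] using congrArg (w • ·) (v1 (Fin.last k))) fun i ih => by
      simp only [Fin.val_succ, Fin.val_castSucc, Nat.cast_succ, ← add_assoc] at ih ⊢
      simp [va', ih, hw, ε, (scy_adj (i := i.castSucc) (j := i.succ) rfl).2, Fin.castSucc_ne_last]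
  have v3 : ∀ i, v (k + 1 + k + 1 + i) = -v i := fun i => by
    rw [← va, va', show v (k + 1 + k) = _ from v2 (Fin.last k), hw]
    simp [ε, scy_last, v]
  have vs : ∀ i j : ℤ, ℋ q (v j) (v i) = ℋ q (v (j - i)) (v 0) := fun i j => by
    rw [← herm_su_smul (w ^ i) _ (v 0), va, va, zero_add, sub_add_cancel]
  have v0 : v 0 = b (inl (inl 0)) := v1 0
  have vo : ∀ i j : ℤ, i ≤ j → j - i < (k + 1 : ℕ) → ℋ q (v j) (v i) = 0 := fun i j h h' => by
    rw [vs, show j - i = ((⟨(j - i).toNat, by omega⟩ : Fin (k + 1)) : ℕ) by simp; omega, v1, v0, hb]; simp [p]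
  have vb : ∀ i, ∃ x, ∃ c : F, v i = c • b (inl x) := fun i => by
    obtain ⟨j, e⟩ := (isOfFinOrder_of_finite w).mem_powers_iff_mem_zpowers.2 ⟨i, rfl⟩
    simp only [v, ← e]
    clear e
    induction j with
    | zero => exact ⟨inl 0, 1, by simp⟩
    | succ j ih =>
      obtain ⟨x, c, ih⟩ := ih
      exact ⟨_, _, by rw [pow_succ', mul_smul, ih, su_smul_smul, hw, smul_smul]; rfl⟩
  refine ⟨θ, w, h, v, ∑ x, b (inr x), ⟨⟨va, fun i j h h' => ?_, fun i j h => ?_⟩, θ0, fun i => ?_,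
    fun S a c x => ?_, ?_, ?_, fun i => ?_⟩, fun i hi => ?_, ?_, ?_⟩
  · rcases le_total i j with e | e
    exacts [herm_eq_zero_comm.1 (vo i j e h'), vo j i e h]
  · rw [vs, show j - i = k + 1 + (0 : Fin (k + 1)) by simp; omega, v2, v0, hb]; simp [p, g]
  · obtain ⟨x, c, e⟩ := vb i
    obtain rfl | rfl : r = 0 ∨ r = 1 := by omega
    all_goals simp [e, hb, p]
  · obtain ⟨x, rfl⟩ := E.surjective x
    rw [pi_eq_sum_univ' x, map_sum]
    refine sum_mem fun y _ => ?_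
    rw [map_smul]
    refine S.smul_mem _ (show b y ∈ S from ?_)
    rcases y with (y | y) | y
    · exact v1 y ▸ a _ (by omega) (by omega)
    · by_cases e : y = 0
      · exact v2 y ▸ a _ (by omega) (by simp [e])
      rw [← v2, show (k + 1 + y : ℤ) = k + 1 + k + 1 + (y - (k + 1)) by ring, v3]
      exact neg_mem (a _ (by have := Fin.val_ne_zero_iff.2 e; omega) (by omega))
    obtain rfl | rfl : r = 0 ∨ r = 1 := by omega
    exacts [y.elim0, by simpa [Subsingleton.elim y 0] using c]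
  · obtain rfl | rfl : r = 0 ∨ r = 1 := by omega
    all_goals simp [hw, ε]
  · obtain rfl | rfl : r = 0 ∨ r = 1 := by omega
    all_goals simp [hh, d]
  · obtain ⟨x, c, e⟩ := vb i
    exact ⟨_, by rw [e, su_smul_smul, hh, smul_comm]; rfl⟩
  · simpa [d, ← v1] using hh (inl (inl ⟨i, by omega⟩))
  · obtain rfl | rfl : r = 0 ∨ r = 1 := by omega
    all_goals simp [hb, p, g]
  rintro rfl; simp

theorem comm_E {g : SU n F q} {u z : Fin n → F} {c d μ : F} (o : EOk q u z μ) (e : g • u = c • u)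
    (e' : g • z = d • z) {j : ℕ} (h1 : (c ^ q * d) ^ j = 1) (h2 : (c * c ^ q) ^ j = 1) :
    Commute (g ^ j) (uE q u z μ) := by
  have k : ∀ {u : Fin n → F} {c : F}, g • u = c • u → ∀ j : ℕ, g ^ j • u = c ^ j • u := fun e j => by
    induction j with
    | zero => simp
    | succ j ih => rw [pow_succ', mul_smul, ih, su_smul_smul, e, smul_smul, pow_succ]
  rw [commute_iff_eq, ← mul_inv_eq_iff_eq_mul, (CF.conj_E o (k e j) (k e' j)).2, ← pow_mul, mul_comm j, pow_mul,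
    ← mul_pow, ← mul_pow, h1, h2, one_smul, mul_one]

theorem exists_two_gen_SU (hn : 3 ≤ n) (h32 : ¬(n = 3 ∧ q = 2)) : ∃ a b : SU n F q, closure {a, b} = ⊤ := by
  by_cases h3 : n = 3
  · subst h3
    obtain ⟨u, g, -, h⟩ := uni_su_three (F := F) (q := q) (by omega)
    exact ⟨_, _, h⟩
  obtain ⟨ζ, hζ⟩ := exists_prim_unit (F := F)
  have q2 := two_le_q F (q := q)
  have dv : ∀ {j : ℕ}, (ζ : F) ^ j = 1 → (q + 1) * (q - 1) ∣ j := fun h => by
    rw [← sq_sub_one_eq, ← hF.out]; exact dvd_of_pow hζ h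
  have nv : ∀ {j : ℕ}, 0 < j → j < (q + 1) * (q - 1) → (ζ : F) ^ j ≠ 1 := fun h h' e =>
    (Nat.le_of_dvd h (dv e)).not_gt h'
  have hq : 3 ≤ (q + 1) * (q - 1) ∧ q - 1 < (q + 1) * (q - 1) := ⟨Nat.mul_le_mul (show 3 ≤ _ by omega)
    (show 1 ≤ _ by omega), lt_mul_of_one_lt_left (by omega) (by omega)⟩
  have z1 : (ζ : F) ≠ 1 := by simpa using nv (j := 1) (by omega) (by omega)
  have z2 := nv (j := 2) (by omega) (by omega)
  have z3 := nv (j := q - 1) (by omega) (by omega)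
  have z4 : (ζ : F) ^ q = ζ ^ (q - 1) * ζ := by rw [← pow_succ, Nat.sub_add_cancel (by omega)]
  have z5 : (ζ : F) ^ (q - 1) * (ζ ^ (q - 1)) ^ q = 1 := by
    rw [← pow_succ', ← pow_mul, mul_comm, ← sq_sub_one_eq, ← hF.out]
    exact FiniteField.pow_card_sub_one_eq_one _ ζ.ne_zero
  have g := genA_prim hζ
  have g' := genA_prim (k := ζ ^ q) fun a => by
    obtain ⟨j, rfl⟩ := hζ a
    exact ⟨q * j, Units.ext (by simp [pow_mul, pow_q_q])⟩
  obtain ⟨k, r, hr, hk, rfl⟩ : ∃ k r, r ≤ 1 ∧ 1 ≤ k ∧ n = 2 * (k + 1) + r := ⟨n / 2 - 1, n % 2, by omega⟩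
  obtain ⟨μ, hμ, μ0⟩ : ∃ μ : F, μ + μ ^ q = r ∧ (r = 0 → μ = 0) := by
    obtain rfl | rfl : r = 0 ∨ r = 1 := by omega
    exacts [⟨0, by simp [zero_pow_q]⟩, (exists_trace_eq (q := q) (c := 1) (by simp)).imp fun _ h => by simpa]
  have key : ∀ {κ : F} (hκ : κ * κ ^ q = 1) (D : ℕ → F) (D0 : ∀ i, D i ≠ 0)
      (hD : (∏ i ∈ Finset.range (k + 1), D i * (D i ^ q)⁻¹) * κ ^ r = 1) (j : ℕ),
      (r = 0 ∨ (D 0 ^ q * κ) ^ j = 1 ∧ (D 0 * D 0 ^ q) ^ j = 1) → (D k * D 0 ^ q) ^ j ≠ 1 → GenA (D k * D 0 ^ q) →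
      D (k - 1) ≠ D k → (r = 0 ∨ κ ≠ D k ∧ (D 0 ^ q * κ ≠ 1 ∧ GenA (D 0 ^ q * κ) ∨
        j = 1 ∧ D 1 ^ q * κ ≠ 1 ∧ GenA (D 1 ^ q * κ))) → ∃ a b : SU (2 * (k + 1) + r) F q, closure {a, b} = ⊤ :=
    fun hκ D D0 hD j a b c d e => by
      obtain ⟨θ, w, h, v, z, f, h1, h2, h3⟩ := exists_cf rfl hr hκ D D0 hD
      have o : EOk q (v 0) z μ := ⟨(f.o 0 0).1, f.zo 0, hμ.trans h2.symm⟩
      refine ⟨_, _, f.two (by omega) (by omega) o (h1 0 (by omega)) (h1 1 hk) (by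
        convert h1 (k - 1) (by omega) <;> omega) (by convert h1 k le_rfl <;> omega) ?_ b c d ?_⟩
      · rcases a with a | a
        · simp [h3 a, μ0 a, uE_zero]
        exact comm_E o (h1 0 (by omega)) f.hz a.1 a.2
      by_cases r0 : r = 0
      exacts [.inl ⟨h3 r0, μ0 r0⟩, .inr ⟨by simp [h2, show r = 1 by omega], e.resolve_left r0⟩]
  rcases hk.eq_or_lt with rfl | hk
  · obtain rfl | rfl : r = 0 ∨ r = 1 := by omega
    · refine key (κ := 1) (by simp) (fun i => if i = 0 then ζ ^ q else ζ) (fun i => by split_ifs <;> simp)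
        (by simp [Finset.prod_range_succ, pow_q_q]; field_simp) 1 (.inl rfl) ?_ ?_ (by simp [z4, z3]) (.inl rfl)
      all_goals simp [pow_q_q, ← sq, z2, g.2.1]
    by_cases h2 : q = 2
    · have : (ζ : F) ^ 2 * ζ = 1 := by simpa [h2, mul_comm] using z5
      refine key (κ := ζ) (by simpa [h2] using z5) (fun i => if i = 0 then ζ else 1) (fun i => by split_ifs <;> simp)
        (by simp [Finset.prod_range_succ, h2]; field_simp) 1 (.inr ?_) ?_ ?_ ?_ (.inr ⟨?_, .inr ?_⟩)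
      all_goals simp [mul_comm (ζ : F), *]
    refine key z5 (fun i => if i = 0 then 1 else ζ) (fun i => by split_ifs <;> simp)
      (by simp [Finset.prod_range_succ, z4]) (q + 1) (.inr ?_) ?_ ?_ ?_ (.inr ⟨?_, .inl ⟨?_, ?_⟩⟩)
    · simpa [pow_succ'] using z5
    · simpa using nv (j := q + 1) (by omega) (lt_mul_of_one_lt_right (by omega) (by omega))
    · simpa using g.1
    · simpa using z1.symm
    · intro e
      refine nv (j := q - 2) (by omega) (by omega) (mul_right_cancel₀ ζ.ne_zero ?_)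
      rw [← pow_succ, one_mul, show q - 2 + 1 = q - 1 by omega, e]; rfl
    · simpa using z3
    simp only [if_true, one_pow, one_mul]
    refine genA_of_sub fun s d hs hd e e' => ?_
    have := dv (j := (s - 1) * (q - 1)) (mul_right_cancel₀ (pow_ne_zero (q - 1) ζ.ne_zero) (by
      rw [mul_comm (s - 1), pow_mul, ← pow_succ, Nat.sub_add_cancel (by omega), e', one_mul]))
    have := Nat.le_of_dvd (by omega) (Nat.dvd_of_mul_dvd_mul_right (by omega) this)
    have := (Nat.pow_lt_pow_left (show q < s by omega) two_ne_zero).trans_le (Nat.pow_le_pow_right (by omega) hd)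
    rw [← e, hF.out] at this
    omega
  refine key (κ := 1) (by simp) (fun i => if i = 1 then (ζ : F)⁻¹ else if i = k then ζ else 1)
    (fun i => by split_ifs <;> simp) ?_ 1 (.inr ?_) ?_ ?_ ?_ (.inr ⟨?_, .inr ⟨rfl, ?_⟩⟩)
  · rw [Finset.prod_eq_mul 1 k hk.ne (fun i _ h => by simp [h]) (by simp; omega) (by simp)]
    simp [hk.ne']; field_simp
  any_goals simp [hk.ne', z1, z1.symm, g.1, show 0 ≠ k by omega]
  · split_ifs
    exacts [fun e => z2 (by rw [sq]; nth_rw 1 [← e]; simp), by omega, z1.symm]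
  exact ⟨fun e => z1 (by rw [← pow_q_q (q := q) (ζ : F), e, one_pow]), by simpa using g'.2.2.1⟩

end Cfsg.Agent.Pres
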