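import Cfsg.Agent.Pres.Spn2

/-! The group `Ω⁺(2n, q)`: Levi subgroup `levO`, the sign change `sO`, and the Curtis-Tits property
`om_ct`. -/

set_option autoImplicit false

namespace Cfsg.Agent.Pres

open Subgroup _root_.Cfsg.Agent.Classical Cfsg.Lie Cfsg.Agent.Chev Cfsg.Agent.Mult Matrix
open scoped MatrixGroups commutatorElement

attribute [local instance 100] LieRing.ofAssociativeRing

variable {F : Type*} [Field F] {J' : Type*} [Group J']

theorem cm_of' (f : SL(2, F) →* J') (y : J') (h1 : ∀ t, Commute y (f (uSL t)))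
    (h2 : ∀ t, Commute y (f (lSL t))) (g : SL(2, F)) : Commute y (f g) :=
  cm_of f y (DFunLike.congr_fun (SL2_hom_ext (fun t => mul_inv_eq_of_eq_mul (h1 t).eq)
    fun t => mul_inv_eq_of_eq_mul (h2 t).eq)) g

section
variable {l : ℕ}

variable (F l) in
/-- `Ω⁺(2l, F)`. -/
abbrev OmP := ↥(Omega F (quadFormPlus l F))

/-- The matrix of an element of `Ω⁺`. -/
def oM : OmP F l →* Matrix (Fin l ⊕ Fin l) (Fin l ⊕ Fin l) F := (Units.coeHom _).comp (jΩ _)

theorem oM_injective : Function.Injective (oM (F := F) (l := l)) :=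
  Units.val_injective.comp (jΩ_injective _)

variable (h3 : 3 ≤ l)

theorem plusS_val (r : (cdD l).R) (t : F) :
    oM ((plusS h3 F).x ((mdD h3).q r) t) = 1 + t • cm F ((cdD l).nat.e r) := by
  refine (congrArg Units.val (pull_x _ _ _ _ _ _)).trans ?_
  rw [MD.Rp.coe_sys, show (rpD h3).E2 r = 0 from if_neg (swap_ne _), map_zero, smul_zero, add_zero]; rfl

theorem plusS_short {i j : Fin l} (h : i.val + 1 = j) (t : F) :
    oM ((plusS h3 F).x (sm (D := (mdD h3).D) i) t) = levM (el i j t) ∧
      oM ((plusS h3 F).x (ng (sm (D := (mdD h3).D) i)) t) = levM (el j i t) := by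
  have h1 : i.val + 1 < l := h ▸ j.2
  obtain rfl : j = ⟨i + 1, h1⟩ := Fin.ext h.symm
  have h2 : i ≠ ⟨i + 1, h1⟩ := fun e => by simpa using congrArg Fin.val e
  rw [MD.sm_q, MD.ng_q]
  constructor <;> rw [plusS_val]
  · rw [levM_el h2]
    ext x y
    simp [mdD, CD.md, baseD, h1, CD.nat, CD.s, CD.E, cdH, sg0, cm_apply, single_apply]
    split_ifs <;> simp
  · rw [levM_el h2.symm]
    ext x y
    simp [mdD, CD.md, baseD, h1, CD.nat, CD.s, CD.E, cdH, sg0, cm_apply, single_apply, CD.neg]
    split_ifs <;> simp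

theorem plusS_last {i j : Fin l} (h : i.val + 1 = j) (h' : j.val + 1 = l) (t : F) :
    oM ((plusS h3 F).x (sm (D := (mdD h3).D) j) t) =
      1 + (single (.inl i) (.inr j) t - single (.inl j) (.inr i) t) ∧
      oM ((plusS h3 F).x (ng (sm (D := (mdD h3).D) j)) t) =
        1 + (single (.inr j) (.inl i) t - single (.inr i) (.inl j) t) := by
  have h1 : ¬ j.val + 1 < l := by omega
  have hj := j.2
  obtain rfl : i = ⟨j - 1, (Nat.sub_le _ _).trans_lt hj⟩ := Fin.ext (by simp; omega)
  have h2 : (⟨j - 1, (Nat.sub_le _ _).trans_lt hj⟩ : Fin l) ≠ j := fun e => by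
    have := congrArg Fin.val e; simp at this h; omega
  rw [MD.sm_q, MD.ng_q]
  constructor <;> rw [plusS_val]
  · ext x y
    simp [mdD, CD.md, baseD, h1, h2, CD.nat, CD.s, CD.E, cdH, sg0, cm_apply, single_apply]
    split_ifs <;> simp
  · ext x y
    simp [mdD, CD.md, baseD, h1, h2, CD.nat, CD.s, CD.E, cdH, sg0, cm_apply, single_apply, CD.neg]
    split_ifs <;> simp

include h3 in
theorem levM_mem (g : SL(l, F)) :
    g ∈ (oM (F := F) (l := l)).toHomUnits.range.comap (levM (F := F) (n := Fin l)).toHomUnits := by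
  rw [eq_top_of_adj (H := comap _ _) ?_]
  · exact mem_top g
  refine fun i j e a => ⟨⟨(plusS h3 F).x (sm (D := (mdD h3).D) i) a, Units.ext ?_⟩,
    (plusS h3 F).x (ng (sm (D := (mdD h3).D) i)) a, Units.ext ?_⟩
  exacts [(plusS_short h3 e a).1, (plusS_short h3 e a).2]

theorem oMU_injective : Function.Injective (oM (F := F) (l := l)).toHomUnits := fun _ _ h =>
  oM_injective (congrArg Units.val h)

/-- The Levi subgroup. -/
noncomputable def levO : SL(l, F) →* OmP F l :=
  (MonoidHom.ofInjective oMU_injective).symm.toMonoidHom.comp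
      (levM.toHomUnits.codRestrict _ (levM_mem h3))

theorem oM_levO (g : SL(l, F)) : oM (levO h3 g) = levM g :=
  congrArg Units.val (MonoidHom.apply_ofInjective_symm oMU_injective _)

theorem levO_injective : Function.Injective (levO (F := F) h3) := fun _ _ h =>
  levM_injective (by rw [← oM_levO h3, h, oM_levO])

theorem plusS_lev {i j : Fin l} (h : i.val + 1 = j) (t : F) :
    (plusS h3 F).x (sm (D := (mdD h3).D) i) t = levO h3 (el i j t) ∧
      (plusS h3 F).x (ng (sm (D := (mdD h3).D) i)) t = levO h3 (el j i t) :=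
  ⟨oM_injective (by rw [oM_levO, (plusS_short h3 h t).1]),
    oM_injective (by rw [oM_levO, (plusS_short h3 h t).2])⟩

/-- The sign change at two coordinates. -/
def sgP (i j : Fin l) : Equiv.Perm (Fin l ⊕ Fin l) := Equiv.swap (.inl i) (.inr i) * Equiv.swap (.inl j) (.inr j)

theorem sgP_apply {i j : Fin l} (h : i ≠ j) (x : Fin l ⊕ Fin l) :
    sgP i j x = if x.elim id id = i ∨ x.elim id id = j then x.swap else x := by
  rcases x with x | x <;> simp only [sgP, Equiv.Perm.mul_apply, Equiv.swap_apply_def] <;> grind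

theorem exists_sO {i j : Fin l} : ∃ s : OmP F l, oM s = (sgP i j)⁻¹.permMatrix F := by
  let pG : Equiv.Perm (Fin l ⊕ Fin l) →* GL (Fin l ⊕ Fin l) F := (permMatrixHom (R := F)).toHomUnits
  let T := (isometryGroup F (quadFormPlus l F)).comap pG
  have m1 : Equiv.swap (.inl i) (.inr i) ∈ T := fun u _ => by
    change quadFormPlus l F ((Equiv.swap _ _)⁻¹.permMatrix F *ᵥ u) = quadFormPlus l F u
    rw [permMatrix_mulVec, Equiv.swap_inv]
    refine Finset.sum_congr rfl fun k _ => ?_
    by_cases e : k = i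
    · simp [e, mul_comm]
    · simp [Equiv.swap_apply_def, e]
  have m2 : Equiv.Perm.sumCongr (Equiv.swap i j) (Equiv.swap i j) ∈ T := fun u _ => by
    change quadFormPlus l F (Equiv.Perm.permMatrix F (Equiv.Perm.sumCongr _ _)⁻¹ *ᵥ u) = quadFormPlus l F u
    rw [permMatrix_mulVec, Equiv.Perm.sumCongr_inv, Equiv.swap_inv]
    exact Equiv.sum_comp (Equiv.swap i j) fun k => u (.inl k) * u (.inr k)
  let pO : T →* isometryGroup F (quadFormPlus l F) := pG.subgroupComap _
  refine ⟨⟨pO ⁅(⟨_, m1⟩ : T), (⟨_, m2⟩ : T)⁆, ?_⟩, ?_⟩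
  · rw [map_commutatorElement]
    exact commutator_mem_commutator (mem_top _) (mem_top _)
  · change Equiv.Perm.permMatrix F _ = _
    congr 2
    change _ * _ * _ * _ = _
    rw [sgP, mul_assoc, mul_assoc, ← mul_assoc (Equiv.Perm.sumCongr _ _)]
    congr 1
    have := Equiv.swap_apply_apply (Equiv.Perm.sumCongr (Equiv.swap i j) (Equiv.swap i j)) (.inl i) (.inr i)
    simpa using this.symm

end

variable {r : ℕ}

/-- The sign change at the first and the last coordinate. -/
noncomputable def sO (F : Type*) [Field F] (r : ℕ) : OmP F (r + 2) :=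
  (exists_sO (i := 0) (j := Fin.last (r + 1))).choose

theorem oM_conj (x : OmP F (r + 2)) : oM (sO F r * x * (sO F r)⁻¹) =
    (oM x).submatrix (sgP 0 (Fin.last _)) (sgP 0 (Fin.last _)) := by
  have h : oM (sO F r) = _ := (exists_sO (F := F) (i := 0) (j := Fin.last (r + 1))).choose_spec
  have h1 : (sgP 0 (Fin.last (r + 1)))⁻¹ = sgP 0 (Fin.last (r + 1)) := by
    rw [inv_eq_iff_mul_eq_one]
    ext x
    simp only [Equiv.Perm.mul_apply, sgP_apply (Fin.last_pos.ne)]
    rcases x with x | x <;> simp <;> split_ifs <;> simp [*]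
  have h2 : (sO F r)⁻¹ = sO F r := by
    rw [inv_eq_iff_mul_eq_one]
    apply oM_injective
    rw [map_mul, h, ← permMatrix_mul, map_one]
    nth_rw 1 [h1]
    simp
  rw [h2, map_mul, map_mul, h, h1, Equiv.Perm.permMatrix, PEquiv.toMatrix_toPEquiv_mul,
    PEquiv.mul_toMatrix_toPEquiv, ← Equiv.Perm.inv_def, h1]
  rfl

/-- The last but one index. -/
def pI (r : ℕ) : Fin (r + 2) := ⟨r, by omega⟩

/-- The last two indices. -/
def eA (r : ℕ) : Fin 2 ↪ Fin (r + 2) := Fin.natAddEmb r

theorem eA_zero : eA r 0 = pI r := rfl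

theorem eA_one : eA r 1 = Fin.last _ := rfl

theorem pI_ne : pI r ≠ Fin.last _ := fun h => by simpa [pI] using congrArg Fin.val h

theorem embA_u (t : F) : embSL (eA r) (uSL t) = el (pI r) (Fin.last _) t := by
  rw [← el_u, embSL_el _ (by decide)]; rfl

theorem embA_l (t : F) : embSL (eA r) (lSL t) = el (Fin.last _) (pI r) t := by
  rw [← el_l, embSL_el _ (by decide)]; rfl

theorem embA_d (t : Fˣ) : (embSL (eA r) (dSL t)).1 =
    diagonal fun i => if i = pI r then (t : F) else if i = Fin.last _ then (t : F)⁻¹ else 1 := by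
  change emb _ _ = _
  have : (dSL t).1 = 1 + (single 0 0 ((t : F) - 1) + single 1 1 ((t : F)⁻¹ - 1)) := by
    ext i j; fin_cases i <;> fin_cases j <;> simp
  rw [this, emb_one_add, Matrix.mul_add, Matrix.add_mul, pmat_single, pmat_single, eA_zero, eA_one]
  have := pI_ne (r := r)
  ext i j
  simp only [Matrix.add_apply, one_apply, single_apply, diagonal_apply]
  grind

theorem levM_diag {n : Type*} [Fintype n] [DecidableEq n] {g : SpecialLinearGroup n F} {d : n → F}
    (h : g.1 = diagonal d) : levM g = diagonal (Sum.elim d fun i => (d i)⁻¹) := by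
  have h0 : ∀ i, d i ≠ 0 := fun i e => by
    have := g.2
    rw [h, det_diagonal, Finset.prod_eq_zero (Finset.mem_univ i) e] at this
    exact zero_ne_one this
  have : (g⁻¹).1 = diagonal fun i => (d i)⁻¹ := by
    have e : g.1 * (g⁻¹).1 = 1 := congrArg Subtype.val (mul_inv_cancel g)
    rw [← left_inv_eq_right_inv (b := diagonal fun i => (d i)⁻¹) ?_ e]
    rw [h, diagonal_mul_diagonal, ← diagonal_one]
    congr 1; ext i; exact inv_mul_cancel₀ (h0 i)
  change fromBlocks _ _ _ _ = _
  rw [this, h, diagonal_transpose, fromBlocks_diagonal]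

variable (hr : 1 ≤ r)

/-- The fundamental subgroup of the last node. -/
noncomputable def gO : SL(2, F) →* OmP F (r + 2) :=
  (MulAut.conj (sO F r)).toMonoidHom.comp ((levO (by omega)).comp (embSL (eA r)))

theorem gO_apply (b : SL(2, F)) :
    gO hr b = sO F r * levO (by omega) (embSL (eA r) b) * (sO F r)⁻¹ := rfl

include hr in
theorem pI_ne_zero : pI r ≠ 0 := fun h => by have := congrArg Fin.val h; simp [pI] at this; omega

theorem oM_gO (t : F) : oM (gO hr (uSL t)) =
    1 + (single (.inl (pI r)) (.inr (Fin.last _)) t - single (.inl (Fin.last _)) (.inr (pI r)) t) ∧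
    oM (gO hr (lSL t)) =
      1 + (single (.inr (Fin.last _)) (.inl (pI r)) t - single (.inr (pI r)) (.inl (Fin.last _)) t) := by
  have := pI_ne (r := r)
  have := pI_ne_zero hr
  constructor <;> rw [gO_apply, oM_conj, oM_levO]
  · rw [embA_u, levM_el pI_ne]
    ext (x | x) (y | y) <;>
      simp only [submatrix_apply, sgP_apply (Fin.last_pos.ne), Matrix.add_apply, Matrix.sub_apply,
        one_apply, single_apply] <;> grind
  · rw [embA_l, levM_el pI_ne.symm]
    ext (x | x) (y | y) <;>
      simp only [submatrix_apply, sgP_apply (Fin.last_pos.ne), Matrix.add_apply, Matrix.sub_apply,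
        one_apply, single_apply] <;> grind

theorem plusS_gO (t : F) :
    (plusS (l := r + 2) (by omega) F).x (sm (D := (mdD (by omega)).D) (Fin.last _)) t = gO hr (uSL t) ∧
      (plusS (l := r + 2) (by omega) F).x (ng (sm (D := (mdD (by omega)).D) (Fin.last _))) t =
        gO hr (lSL t) :=
  ⟨oM_injective (by rw [(oM_gO hr t).1, (plusS_last _ (i := pI r) rfl rfl t).1]),
    oM_injective (by rw [(oM_gO hr t).2, (plusS_last _ (i := pI r) rfl rfl t).2])⟩

theorem sO_comm_el {i j : Fin (r + 2)} (h : i ≠ j) (h1 : i ≠ 0) (h2 : i ≠ Fin.last _) (h3 : j ≠ 0)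
    (h4 : j ≠ Fin.last _) (a : F) : Commute (sO F r) (levO (by omega) (el i j a)) := by
  rw [Commute, SemiconjBy, ← mul_inv_eq_iff_eq_mul]
  apply oM_injective
  rw [oM_conj, oM_levO, levM_el h]
  ext (x | x) (y | y) <;>
    simp only [submatrix_apply, sgP_apply (Fin.last_pos.ne), Matrix.add_apply, Matrix.sub_apply,
      one_apply, single_apply] <;> grind

theorem sO_comm_kappa : Commute (sO F r) (levO (by omega) (embSL (eA r) (dSL (-1)))) := by
  rw [Commute, SemiconjBy, ← mul_inv_eq_iff_eq_mul]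
  apply oM_injective
  rw [oM_conj, oM_levO, levM_diag (embA_d _)]
  have := pI_ne (r := r)
  have := pI_ne_zero hr
  ext (x | x) (y | y) <;>
    simp only [submatrix_apply, sgP_apply (Fin.last_pos.ne), diagonal_apply] <;> simp <;> grind

theorem om_ker {g : SL(r + 2, F)} {b : SL(2, F)} (h : levO (by omega) g * gO hr b = 1) :
    g = 1 ∧ b = 1 ∨ g = (embSL (eA r) (dSL (-1)))⁻¹ ∧ b = dSL (-1) := by
  have p1 := pI_ne (r := r)
  have p2 := pI_ne_zero hr
  have h1 := congrArg oM (eq_inv_of_mul_eq_one_right h)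
  rw [← map_inv, oM_levO, gO_apply, oM_conj, oM_levO] at h1
  have e1 := congrFun (congrFun h1 (.inl (pI r))) (.inr (Fin.last _))
  have e2 := congrFun (congrFun h1 (.inr (Fin.last _))) (.inl (pI r))
  have v : ∀ i j, (embSL (eA r) b).1 (eA r i) (eA r j) = b.1 i j := fun i j => by
    have := congrFun (congrFun (emb_mul_pmat (eA r) b.1) (eA r i)) j
    change emb (eA r) b.1 _ _ = _
    simpa [pmat, Matrix.mul_apply] using this
  simp [sgP_apply (Fin.last_pos.ne), p1, p2, levM] at e1 e2
  have b1 : b.1 0 1 = 0 := (v 0 1).symm.trans e1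
  have b2 : b.1 1 0 = 0 := (v 1 0).symm.trans e2
  have hd := b.2
  rw [det_fin_two, b1, zero_mul, sub_zero] at hd
  obtain ⟨t, rfl⟩ : ∃ t, b = dSL t := ⟨Units.mkOfMulEqOne _ _ hd, Subtype.ext (by
    ext i j; fin_cases i <;> fin_cases j <;> simp [b1, b2, eq_inv_of_mul_eq_one_right hd])⟩
  rw [levM_diag (embA_d _)] at h1
  have h2 : (g⁻¹).1 = diagonal fun i => if i = pI r ∨ i = Fin.last _ then (t : F) else 1 := by
    ext i j
    have := congrFun (congrFun h1 (.inl i)) (.inl j)
    simp only [submatrix_apply, sgP_apply (Fin.last_pos.ne), diagonal_apply] at this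
    refine (show _ = levM g⁻¹ (.inl i) (.inl j) from rfl).trans (this.symm.trans ?_)
    simp [diagonal_apply]; grind
  have h3 := (g⁻¹).2
  rw [h2, det_diagonal, Finset.prod_ite, Finset.prod_const_one, mul_one, Finset.prod_const,
    show (Finset.univ.filter fun i => i = pI r ∨ i = Fin.last _) = {pI r, Fin.last _} by ext; simp,
    Finset.card_pair p1] at h3
  rcases sq_eq_one_iff.1 h3 with e | e
  · obtain rfl : t = 1 := Units.ext e
    have : dSL (1 : Fˣ) = 1 := (dSLHom F).map_one
    rw [this, map_one, mul_one] at h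
    exact .inl ⟨levO_injective _ (h.trans (map_one _).symm), this⟩
  · obtain rfl : t = -1 := Units.ext e
    rw [gO_apply, (sO_comm_kappa hr).eq, mul_inv_cancel_right, ← map_mul] at h
    exact .inr ⟨eq_inv_of_mul_eq_one_left (levO_injective _ (h.trans (map_one _).symm)), rfl⟩

theorem comm_gO {i j : Fin (r + 2)} (h : i ≠ j) (h1 : i ≠ pI r ∧ i ≠ Fin.last _ ∧ j ≠ pI r ∧ j ≠ Fin.last _ ∨
    i = pI r ∧ j = Fin.last _ ∨ j = pI r ∧ i = Fin.last _) (a : F) (b : SL(2, F)) :
    Commute (levO (by omega) (el i j a)) (gO hr b) := by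
  have p1 := pI_ne (r := r)
  refine cm_of' _ _ (fun t => ?_) (fun t => ?_) b
  all_goals
    apply oM_injective
    rw [map_mul, map_mul, oM_levO, levM_el h]
    first | rw [(oM_gO hr t).1] | rw [(oM_gO hr t).2]
    simp only [mul_add, add_mul, mul_one, one_mul, mul_sub, sub_mul]
    rcases h1 with ⟨e1, e2, e3, e4⟩ | ⟨rfl, rfl⟩ | ⟨rfl, rfl⟩
    · simp [single_mul_single_of_ne, e1, e2, e3, e4, e1.symm, e2.symm, e3.symm, e4.symm]; abel
    · simp [single_mul_single_of_ne, p1, p1.symm, mul_comm]; abel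
    · simp [single_mul_single_of_ne, p1, p1.symm, mul_comm]; abel

end Cfsg.Agent.Pres
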