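import Cfsg.Agent.Pres.Om

/-! Presentations of `Ω⁺(2n, q)`. -/

set_option autoImplicit false

namespace Cfsg.Agent.Pres

open Subgroup _root_.Cfsg.Agent.Classical Cfsg.Lie Cfsg.Agent.Chev Cfsg.Agent.Mult Matrix
open scoped MatrixGroups

attribute [local instance 100] LieRing.ofAssociativeRing

variable {F : Type*} [Field F] {J' : Type*} [Group J'] {r : ℕ}

theorem exists_hom_of_tor [Finite F] {D : ChevalleyDatum} [Chev.Good D] [Conn D] {G : Type*} [Group G]
    {X : Sys D F G} (hX : Full X) (Z : Sys D F J')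
    (h : ∀ a, (mult_of_finite X).tor a = 1 → (mult_of_finite Z).tor a = 1) :
    ∃ ψ : G →* J', ∀ r t, ψ (X.x r t) = Z.x r t := by
  have h1 := Sys.surjective_of_map (X := scS D F) hX.top X.lift_scGen
  have h2 : X.lift.ker ≤ Z.lift.ker := fun y hy => by
    have m' := mult_of_finite (scS D F)
    obtain ⟨a, rfl⟩ := m'.exists_tor ((scCover D F).mem_H_of_mem_center scS_U_univ
      ((mem_center_sc hX.c).2 (by rw [MonoidHom.mem_ker.1 hy, map_one])))
    rw [MonoidHom.mem_ker, lift_tor (mult_of_finite _) m'] at hy ⊢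
    exact h a hy
  refine ⟨X.lift.liftOfSurjective h1 ⟨Z.lift, h2⟩, fun r t => ?_⟩
  rw [← X.lift_scGen, MonoidHom.liftOfRightInverse_comp_apply]
  exact Z.lift_scGen r t

/-- `σ` centralises the middle `SL`. -/
def CK (φ : SL(r + 2, F) →* J') (σ : J') : Prop :=
  (∀ i j : Fin (r + 2), i ≠ j → i ≠ 0 → i ≠ Fin.last _ → j ≠ 0 → j ≠ Fin.last _ → ∀ a,
    Commute σ (φ (el i j a))) ∧ Commute σ (φ (embSL (eA r) (dSL (-1))))

/-- The last fundamental subgroup. -/
def gJ (φ : SL(r + 2, F) →* J') (σ : J') : SL(2, F) →* J' :=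
  (MulAut.conj σ).toMonoidHom.comp (φ.comp (embSL (eA r)))

theorem gJ_apply (φ : SL(r + 2, F) →* J') (σ : J') (b : SL(2, F)) :
    gJ φ σ b = σ * φ (embSL (eA r) b) * σ⁻¹ := rfl

/-- The elements centralising the last fundamental subgroup. -/
def CG (φ : SL(r + 2, F) →* J') (σ : J') : Subgroup SL(r + 2, F) :=
  (centralizer (Set.range (gJ φ σ))).comap φ

theorem mem_CG {φ : SL(r + 2, F) →* J'} {σ : J'} {g : SL(r + 2, F)} :
    g ∈ CG φ σ ↔ ∀ b, Commute (φ g) (gJ φ σ b) :=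
  ⟨fun h b => (h _ ⟨b, rfl⟩).symm, by rintro h _ ⟨b, rfl⟩; exact (h b).symm⟩

theorem om_ct [Finite F] (hr : 2 ≤ r) (φ : SL(r + 2, F) →* J') (σ : J') (H : CK φ σ)
    (h1 : ∀ a, el 0 1 a ∈ CG φ σ ∧ el 1 0 a ∈ CG φ σ)
    (h2 : ∀ a, el (pI r) (Fin.last _) a ∈ CG φ σ ∧ el (Fin.last _) (pI r) a ∈ CG φ σ) :
    ∃ ψ : OmP F (r + 2) →* J', (∀ g, ψ (levO (by omega) g) = φ g) ∧
      ∀ b, ψ (gO (by omega) b) = gJ φ σ b := by
  have h3 : 3 ≤ r + 2 := by omega
  have hr1 : 1 ≤ r := by omega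
  let a : Fin (r + 2) → F → J' := fun k t =>
    if h : k.val + 1 < r + 2 then φ (el k ⟨_, h⟩ t) else gJ φ σ (uSL t)
  let b : Fin (r + 2) → F → J' := fun k t =>
    if h : k.val + 1 < r + 2 then φ (el ⟨_, h⟩ k t) else gJ φ σ (lSL t)
  have ab : ∀ i j : Fin (r + 2), i.val + 1 = j → ∀ t, a i t = φ (el i j t) ∧
      b i t = φ (el j i t) := fun i j e t => by
    have h : i.val + 1 < r + 2 := e ▸ j.2
    obtain rfl : j = ⟨_, h⟩ := Fin.ext e.symm
    exact ⟨dif_pos h, dif_pos h⟩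
  have ab' : ∀ t, a (Fin.last _) t = gJ φ σ (uSL t) ∧ b (Fin.last _) t = gJ φ σ (lSL t) := fun t =>
    ⟨dif_neg (by simp), dif_neg (by simp)⟩
  have lg := plusS_gO (F := F) hr1
  have ker : ∀ g x, levO h3 g * gO hr1 x = 1 → φ g * gJ φ σ x = 1 := fun g x h => by
    rcases om_ker hr1 h with ⟨rfl, rfl⟩ | ⟨rfl, rfl⟩
    · simp
    · rw [gJ_apply, H.2.eq]; simp
  have cA : Cov (plusS h3 F) a b fun k => k.val + 1 < r + 2 :=
    cov_of (levO h3) φ (fun x h => by rw [levO_injective _ (h.trans (map_one _).symm), map_one])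
      fun k hk t => ⟨⟨_, (plusS_lev h3 (j := ⟨_, hk⟩) rfl t).1.symm, (ab k ⟨_, hk⟩ rfl t).1.symm⟩,
        _, (plusS_lev h3 (j := ⟨_, hk⟩) rfl t).2.symm, (ab k ⟨_, hk⟩ rfl t).2.symm⟩
  have cB : Cov (plusS h3 F) a b fun k => 0 < k.val ∧ k.val < r ∨ k.val = r + 1 :=
    cov_of ((MulAut.conj (sO F r)).toMonoidHom.comp (levO h3)) ((MulAut.conj σ).toMonoidHom.comp φ)
      (fun x h => by
        have e : levO h3 x = 1 := (MulAut.conj (sO F r)).injective (h.trans (map_one _).symm)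
        rw [levO_injective _ (e.trans (map_one _).symm), map_one])
      fun k hk t => by
        rcases hk with hk | hk
        · let j : Fin (r + 2) := ⟨k + 1, by omega⟩
          have e := plusS_lev (F := F) h3 (i := k) (j := j) rfl t
          have e' := ab k j rfl t
          have n0 : k ≠ j := fun h => by simpa [j] using congrArg Fin.val h
          have n1 : k ≠ 0 := fun h => by simp [h] at hk
          have n2 : k ≠ Fin.last _ := fun h => by simp [h] at hk
          have n3 : j ≠ 0 := fun h => by simpa [j] using congrArg Fin.val h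
          have n4 : j ≠ Fin.last _ := fun h => by have := congrArg Fin.val h; simp [j] at this; omega
          exact ⟨⟨el k j t, (mul_inv_eq_of_eq_mul (sO_comm_el hr1 n0 n1 n2 n3 n4 t).eq).trans e.1.symm,
            (mul_inv_eq_of_eq_mul (H.1 _ _ n0 n1 n2 n3 n4 t).eq).trans e'.1.symm⟩,
            el j k t, (mul_inv_eq_of_eq_mul (sO_comm_el hr1 n0.symm n3 n4 n1 n2 t).eq).trans e.2.symm,
            (mul_inv_eq_of_eq_mul (H.1 _ _ n0.symm n3 n4 n1 n2 t).eq).trans e'.2.symm⟩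
        · obtain rfl : k = Fin.last _ := Fin.ext hk
          exact ⟨⟨embSL (eA r) (uSL t), (lg t).1.symm, (ab' t).1.symm⟩,
            embSL (eA r) (lSL t), (lg t).2.symm, (ab' t).2.symm⟩
  have cC : ∀ i j : Fin (r + 2), i.val + 1 = j → (∀ t, el i j t ∈ CG φ σ ∧ el j i t ∈ CG φ σ) →
      (i ≠ pI r ∧ i ≠ Fin.last _ ∧ j ≠ pI r ∧ j ≠ Fin.last _ ∨ i = pI r ∧ j = Fin.last _) →
      Cov (plusS h3 F) a b fun k => k = i ∨ k = Fin.last _ := fun i j e c1 c2 => by
    have n0 : i ≠ j := fun h => by simp [h] at e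
    let ε : Fin 2 ↪ Fin (r + 2) := ⟨![i, j], fun x y => by fin_cases x <;> fin_cases y <;> simp [n0, n0.symm]⟩
    have e1 : ∀ t : F, embSL ε (uSL t) = el i j t := fun t => by rw [← el_u, embSL_el _ (by decide)]; rfl
    have e2 : ∀ t : F, embSL ε (lSL t) = el j i t := fun t => by rw [← el_l, embSL_el _ (by decide)]; rfl
    refine cov_of (((levO h3).comp (embSL ε)).noncommCoprod (gO hr1) fun x y => (cm_of' _ _
      (fun t => ?_) (fun t => ?_) x).symm) ((φ.comp (embSL ε)).noncommCoprod (gJ φ σ) fun x y =>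
        (cm_of' _ _ (fun t => ?_) (fun t => ?_) x).symm) (fun x h => ker _ _ h) fun k hk t => ?_
    · exact (e1 t ▸ comm_gO hr1 n0 (by tauto) t y).symm
    · exact (e2 t ▸ comm_gO hr1 n0.symm (by tauto) t y).symm
    · exact (e1 t ▸ mem_CG.1 (c1 t).1 y).symm
    · exact (e2 t ▸ mem_CG.1 (c1 t).2 y).symm
    rcases hk with rfl | rfl
    · have e' := plusS_lev (F := F) h3 e t
      exact ⟨⟨(uSL t, 1), by simp [e1, e'.1], by simp [e1, (ab _ _ e t).1]⟩,
        (lSL t, 1), by simp [e2, e'.2], by simp [e2, (ab _ _ e t).2]⟩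
    · exact ⟨⟨(1, uSL t), by simpa using (lg t).1.symm, by simpa using (ab' t).1.symm⟩,
        (1, lSL t), by simpa using (lg t).2.symm, by simpa using (ab' t).2.symm⟩
  have c0 := cC 0 1 rfl h1 (.inl (by simp only [Ne, Fin.ext_iff, pI]; simp; omega))
  have cp := cC _ _ rfl h2 (.inr ⟨rfl, rfl⟩)
  obtain ⟨Z, hZ⟩ := exists_sys_of_cov (plusS h3 F) a b fun i j => by
    have : i.val < r + 2 := i.2
    have : j.val < r + 2 := j.2
    by_cases h : i.val + 1 < r + 2 ∧ j.val + 1 < r + 2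
    · exact ⟨_, cA, h⟩
    by_cases h' : i.val = 0 ∨ j.val = 0
    · have : ∀ k : Fin (r + 2), k.val = 0 ∨ k.val = r + 1 → k = 0 ∨ k = Fin.last _ := fun k hk =>
        hk.imp Fin.ext Fin.ext
      by_cases e : i.val = j.val
      · exact ⟨_, cA, by omega, by omega⟩
      exact ⟨_, c0, this _ (by omega), this _ (by omega)⟩
    by_cases h'' : i.val = r ∨ j.val = r
    · exact ⟨_, cp, by simp only [Fin.ext_iff, pI]; simp; omega, by
        simp only [Fin.ext_iff, pI]; simp; omega⟩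
    · exact ⟨_, cB, by omega, by omega⟩
  obtain ⟨ψ, hψ⟩ := exists_hom_of_tor (plusFull h3 F) Z fun c hc => by
    let mX := mult_of_finite (plusS h3 F)
    let mZ := mult_of_finite Z
    let S : Subgroup (Sm (mdD h3).D → Fˣ) := (((levO h3).prod φ).range).comap (mX.tor.prod mZ.tor)
    have hS : Function.update c (Fin.last _) 1 ∈ S := by
      rw [← Finset.univ_prod_mulSingle (Function.update c (Fin.last _) 1)]
      refine S.prod_mem fun i _ => ?_
      by_cases e : i = Fin.last _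
      · subst e; simp
      have hi : i.val + 1 < r + 2 := Nat.succ_lt_succ (Fin.val_lt_last e)
      have e1 := plusS_lev (F := F) h3 (i := i) (j := ⟨_, hi⟩) rfl
      have e2 := ab i ⟨_, hi⟩ rfl
      generalize Function.update c (Fin.last _) 1 i = u
      refine ⟨nn (ι := Fin (r + 2)) el i ⟨_, hi⟩ (u : F) * nn (ι := Fin (r + 2)) el i ⟨_, hi⟩ (-1),
        Prod.ext ?_ ?_⟩
      · simp only [MonoidHom.prod_apply, Sys.Mult.tor_single, Sys.h, Sys.n, nn, map_mul, (e1 _).1, (e1 _).2]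
        rfl
      · simp only [MonoidHom.prod_apply, Sys.Mult.tor_single, Sys.h, Sys.n, nn, map_mul, (hZ _ _).1,
          (hZ _ _).2, (e2 _).1, (e2 _).2]
        rfl
    obtain ⟨g, hg⟩ := hS
    have e : c = Function.update c (Fin.last _) 1 * Pi.mulSingle (Fin.last _) (c (Fin.last _)) := by
      funext i
      by_cases e : i = Fin.last _ <;> simp [e]
    have e1 : levO h3 g = mX.tor _ := congrArg Prod.fst hg
    have e2 : φ g = mZ.tor _ := congrArg Prod.snd hg
    rw [e, map_mul, Sys.Mult.tor_single] at hc ⊢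
    rw [← e1] at hc
    rw [← e2]
    simp only [Sys.h, Sys.n, (hZ _ _).1, (hZ _ _).2, (ab' _).1, (ab' _).2, ← map_mul]
    refine ker _ _ ?_
    simpa only [Sys.h, Sys.n, (lg _).1, (lg _).2, ← map_mul] using hc
  refine ⟨ψ, SL_ext_adj (f := ψ.comp (levO h3)) fun i j e t => ?_, DFunLike.congr_fun
    (SL2_hom_ext (f := ψ.comp (gO hr1)) (fun t => ?_) fun t => ?_)⟩
  · have e1 := plusS_lev (F := F) h3 e t
    have e2 := ab i j e t
    exact ⟨(congrArg ψ e1.1.symm).trans ((hψ _ _).trans ((hZ _ _).1.trans e2.1)),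
      (congrArg ψ e1.2.symm).trans ((hψ _ _).trans ((hZ _ _).2.trans e2.2))⟩
  · exact (congrArg ψ (lg t).1.symm).trans ((hψ _ _).trans ((hZ _ _).1.trans (ab' t).1))
  · exact (congrArg ψ (lg t).2.symm).trans ((hψ _ _).trans ((hZ _ _).2.trans (ab' t).2))

theorem om_eq_top (hr : 1 ≤ r) {H : Subgroup (OmP F (r + 2))} (h1 : ∀ g, levO (by omega) g ∈ H)
    (h2 : ∀ g, gO hr g ∈ H) : H = ⊤ := by
  have h3 : 3 ≤ r + 2 := by omega
  rw [eq_top_iff, ← (plusFull h3 F).top]
  have : ∀ (i : Fin (r + 2)) t, (plusS h3 F).x (sm (D := (mdD h3).D) i) t ∈ H ∧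
      (plusS h3 F).x (ng (sm (D := (mdD h3).D) i)) t ∈ H := fun i t => by
    by_cases h : i.val + 1 < r + 2
    · have := plusS_lev h3 (i := i) (j := ⟨_, h⟩) rfl t
      exact ⟨this.1 ▸ h1 _, this.2 ▸ h1 _⟩
    · obtain rfl : i = Fin.last _ := Fin.ext (by have := i.2; simp; omega)
      have := plusS_gO hr t
      exact ⟨this.1 ▸ h2 _, this.2 ▸ h2 _⟩
  exact (plusS h3 F).U_univ_le (fun i t => (this i t).1) fun i t => (this i t).2

/-- The middle indices. -/
def eK (r : ℕ) : Fin r ↪ Fin (r + 2) := Fin.succEmb _ |>.trans Fin.castSuccEmb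

theorem exists_eK {i : Fin (r + 2)} (h1 : i ≠ 0) (h2 : i ≠ Fin.last _) : ∃ k, eK r k = i :=
  ⟨⟨i - 1, by have := Fin.val_lt_last h2; have := Fin.pos_iff_ne_zero.2 h1; rw [Fin.lt_def] at this; simp at this; omega⟩,
    Fin.ext (by have := Fin.pos_iff_ne_zero.2 h1; rw [Fin.lt_def] at this; simp [eK] at this ⊢; omega)⟩

theorem eK_ne (k : Fin r) : eK r k ≠ 0 ∧ eK r k ≠ Fin.last _ :=
  ⟨fun h => by simpa [eK] using congrArg Fin.val h, fun h => by
    have := congrArg Fin.val h; have := k.2; simp [eK] at *⟩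

theorem gen_aux [Fintype F] {G : Type*} [Group G] {x : F → G} (xa : ∀ s t, x (s + t) = x s * x t)
    {h w : G} {H : Subgroup G} {k : Fˣ} (hk : ∀ a : Fˣ, ∃ m : ℕ, k ^ m = a) (k2 : (k : F) ^ 2 ≠ 1) {μ : F}
    (μ1 : μ ≠ 1) (c1 : ∀ a, h * x a * h⁻¹ = x (k ^ 2 * a))
    (c2 : ∀ a, w * h * w⁻¹ * x a * (w * h * w⁻¹)⁻¹ = x (μ * a)) (c3 : Commute h (w * h * w⁻¹))
    (m1 : h ∈ H) (m2 : x 1 * w ∈ H) (a : F) : x a ∈ H := by
  have x0 : x 0 = 1 := by simpa using xa 0 0
  have xn : ∀ a, x (-a) = (x a)⁻¹ := fun a => eq_inv_of_mul_eq_one_left (by rw [← xa]; simpa using x0)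
  set h' := w * h * w⁻¹ with e'
  have m3 : x (1 - μ) * h' ∈ H := by
    have := H.mul_mem (H.mul_mem m2 m1) (H.inv_mem m2)
    convert this using 1
    rw [sub_eq_add_neg, xa, ← mul_neg_one, ← c2, xn, e']
    group
  have m4 : x (((k : F) ^ 2 - 1) * (1 - μ)) ∈ H := by
    have := H.mul_mem (H.mul_mem (H.mul_mem m1 m3) (H.inv_mem m1)) (H.inv_mem m3)
    convert this using 1
    rw [sub_mul, one_mul, sub_eq_add_neg, xa, ← c1, xn, ← mul_assoc h, mul_assoc _ h', ← c3.inv_left.eq]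
    group
  have hc : ((k : F) ^ 2 - 1) * (1 - μ) ≠ 0 :=
    mul_ne_zero (sub_ne_zero.2 k2) (sub_ne_zero.2 μ1.symm)
  set c := ((k : F) ^ 2 - 1) * (1 - μ)
  have m5 : ∀ a, x (a * c) ∈ H := by
    refine sq_ind _ (by rw [zero_mul, x0]; exact one_mem _) (by simpa using m4)
      (fun a b ha hb => by rw [add_mul, xa]; exact H.mul_mem ha hb) fun m hm a ha => ?_
    obtain ⟨j, hj⟩ := hk (Units.mk0 m hm)
    obtain rfl : (k : F) ^ j = m := by simpa using congrArg Units.val hj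
    clear hj hm
    induction j with
    | zero => simpa using ha
    | succ j ih =>
      have := H.mul_mem (H.mul_mem m1 ih) (H.inv_mem m1)
      rw [c1] at this
      convert this using 2; ring
  simpa [hc] using m5 (a * c⁻¹)

end Cfsg.Agent.Pres
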