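import Cfsg.Agent.Pres.Om2
import Cfsg.Agent.Pres.Gen3

/-! Presentations of `Ω⁺(2n, q)` on eight generators. -/

set_option autoImplicit false

namespace Cfsg.Agent.Pres

open Subgroup _root_.Cfsg.Agent.Classical Cfsg.Lie Cfsg.Agent.Chev Cfsg.Agent.Mult Matrix
open scoped MatrixGroups

variable {F : Type*} [Field F] {J' : Type*} [Group J'] {r : ℕ}

section
variable {ι : Type*} [Fintype ι] [DecidableEq ι]

theorem emb_diag {m : Type*} [Fintype m] [DecidableEq m] (e : m ↪ ι) {g : SpecialLinearGroup m F}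
    {d : m → F} (h : g.1 = diagonal d) :
    (embSL e g).1 = diagonal (Function.extend e d 1) := by
  change emb _ _ = _
  rw [emb_apply, h]
  ext i j
  simp only [Matrix.add_apply, Matrix.mul_apply, pmat, transpose_apply, of_apply, Matrix.sub_apply,
    one_apply, diagonal_apply]
  by_cases hi : ∃ x, e x = i
  · obtain ⟨x, rfl⟩ := hi
    by_cases hj : ∃ y, e y = j
    · obtain ⟨y, rfl⟩ := hj
      simp [e.injective.extend_apply, eq_comm]
    · have : ∀ y, j ≠ e y := fun y h => hj ⟨y, h.symm⟩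
      simp [this, (this _).symm]
  · have : ∀ y, i ≠ e y := fun y h => hi ⟨y, h.symm⟩
    simp [this, Function.extend_apply' _ _ _ hi]

theorem emb_u (ε : Fin 2 ↪ ι) (t : F) : embSL ε (uSL t) = el (ε 0) (ε 1) t := by
  rw [← el_u, embSL_el _ (by decide)]

theorem emb_l (ε : Fin 2 ↪ ι) (t : F) : embSL ε (lSL t) = el (ε 1) (ε 0) t := by
  rw [← el_l, embSL_el _ (by decide)]

theorem emb_mem {H : Subgroup (SpecialLinearGroup ι F)} (ε : Fin 2 ↪ ι)
    (h : ∀ a, el (ε 0) (ε 1) a ∈ H ∧ el (ε 1) (ε 0) a ∈ H) (b : SL(2, F)) : embSL ε b ∈ H :=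
  (sl_eq_top_of_uSL_lSL (H := H.comap (embSL ε)) (fun a => mem_comap.2 (emb_u ε a ▸ (h a).1))
    fun a => mem_comap.2 (emb_l ε a ▸ (h a).2)).ge (mem_top b)

theorem diag_conj_emb (ε : Fin 2 ↪ ι) {k : SpecialLinearGroup ι F} {d : ι → F} (hk : k.1 = diagonal d)
    (hd : ∀ i, d i ≠ 0) {τ : Fˣ} (h : d (ε 0) = τ * d (ε 1)) (b : SL(2, F)) :
    k * embSL ε b * k⁻¹ = embSL ε (dgSL τ b) := by
  have n : ε 0 ≠ ε 1 := ε.injective.ne (by decide)
  refine DFunLike.congr_fun (SL2_hom_ext (f := (MulAut.conj k).toMonoidHom.comp (embSL ε))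
    (g := (embSL ε).comp (dgSL τ)) (fun a => ?_) fun a => ?_) b
  · have := hd (ε 1)
    simp [emb_u, dgSL_u, diag_conj_el hd hk n, h, this]
  · have := hd (ε 1)
    simp [emb_l, dgSL_l, diag_conj_el hd hk n.symm, h, this]

theorem mem_of_nn {H : Subgroup (SpecialLinearGroup ι F)} {i j k : ι} (hij : i ≠ j) (hik : i ≠ k)
    (hjk : j ≠ k) (h1 : nn el i j 1 ∈ H) (h2 : ∀ a, el j k a ∈ H ∧ el k j a ∈ H) (a : F) :
    el i j a ∈ H ∧ el j i a ∈ H := by
  have S := (stRel_el (ι := ι) (F := F)).to0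
  have e1 : ∀ a, el i k a ∈ H := fun a => by
    simpa [S.nn_col2 hij hik hjk one_ne_zero] using H.mul_mem (H.mul_mem h1 (h2 a).1) (H.inv_mem h1)
  have e2 : ∀ a, el k i a ∈ H := fun a => by
    simpa [S.nn_row2 hij hik hjk one_ne_zero] using H.mul_mem (H.mul_mem h1 (h2 a).2) (H.inv_mem h1)
  constructor
  · rw [← mul_one a, ← stRel_el.com i k j hik hij hjk.symm]
    exact H.mul_mem (H.mul_mem (H.mul_mem (e1 _) (h2 _).2) (H.inv_mem (e1 _))) (H.inv_mem (h2 _).2)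
  · rw [← mul_one a, ← stRel_el.com j k i hjk hij.symm hik.symm]
    exact H.mul_mem (H.mul_mem (H.mul_mem (h2 _).1 (e2 _)) (H.inv_mem (h2 _).1)) (H.inv_mem (e2 _))

end

theorem eq_top_of_dg {τ : Fˣ} (hτ : τ ≠ 1) {H : Subgroup SL(2, F)}
    (hH : ∀ μ g, g ∈ H → dgSL μ g ∈ H) (hu : uSL 1 * lSL (-1) ∈ H) : H = ⊤ := by
  have t0 := τ.ne_zero
  have h1 : uSL (τ : F) * lSL (1 - (τ : F)⁻¹) * uSL (-1) ∈ H := by
    convert H.mul_mem (hH τ _ hu) (H.inv_mem hu) using 1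
    rw [eq_mul_inv_iff_mul_eq, map_mul, dgSL_u, dgSL_l]
    ext i j; fin_cases i <;> fin_cases j <;> simp [Matrix.mul_apply, Fin.sum_univ_two] <;>
      field_simp <;> ring
  have h2 : lSL (((τ : F)⁻¹ - 1) * (1 - (τ : F)⁻¹) * (τ : F)⁻¹) ∈ H := by
    convert H.mul_mem (hH τ _ h1) (H.inv_mem h1) using 1
    rw [eq_mul_inv_iff_mul_eq, map_mul, map_mul, dgSL_u, dgSL_l, dgSL_u]
    ext i j; fin_cases i <;> fin_cases j <;> simp [Matrix.mul_apply, Fin.sum_univ_two] <;>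
      field_simp <;> ring
  have t1 : (τ : F)⁻¹ ≠ 1 := fun e => hτ (Units.ext (inv_eq_one.1 e))
  have e0 : ((τ : F)⁻¹ - 1) * (1 - (τ : F)⁻¹) * (τ : F)⁻¹ ≠ 0 :=
    mul_ne_zero (mul_ne_zero (sub_ne_zero.2 t1) (sub_ne_zero.2 t1.symm)) (inv_ne_zero t0)
  generalize ((τ : F)⁻¹ - 1) * (1 - (τ : F)⁻¹) * (τ : F)⁻¹ = e at h2 e0
  have h3 : ∀ a, lSL a ∈ H := fun a => by
    by_cases h : a = 0
    · simpa [h] using H.one_mem
    have := hH (Units.mk0 _ (div_ne_zero e0 h)) _ h2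
    rw [dgSL_l] at this
    convert this using 2
    simp [e0]
  have h4 : uSL 1 ∈ H := (H.mul_mem_cancel_right (h3 _)).1 hu
  refine sl_eq_top_of_uSL_lSL (fun a => ?_) h3
  by_cases h : a = 0
  · simpa [h] using H.one_mem
  simpa [dgSL_u] using hH (Units.mk0 _ h) _ h4

/-- `H` contains the middle `SL` and the sign change. -/
def HasK (H : Subgroup SL(r + 2, F)) : Prop :=
  (∀ i j : Fin (r + 2), i ≠ j → i ≠ 0 → i ≠ Fin.last _ → j ≠ 0 → j ≠ Fin.last _ → ∀ a, el i j a ∈ H) ∧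
    embSL (eA r) (dSL (-1)) ∈ H

theorem HasK.emb {H : Subgroup SL(r + 2, F)} (h : HasK H) (g : SL(r, F)) : embSL (eK r) g ∈ H :=
  (eq_top_of_el (H := H.comap (embSL (eK r))) fun i j e a => mem_comap.2 (by
    rw [embSL_el _ e]
    exact h.1 _ _ ((eK r).injective.ne e) (eK_ne _).1 (eK_ne _).2 (eK_ne _).1 (eK_ne _).2 _)).ge
    (mem_top g)

theorem exists_K_gen [Fintype F] (hr : 2 ≤ r) :
    ∃ k1 k2 : SL(r + 2, F), ∀ H : Subgroup SL(r + 2, F), HasK H ↔ k1 ∈ H ∧ k2 ∈ H := by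
  obtain ⟨n, rfl⟩ : ∃ n, r = n + 2 := ⟨r - 2, by omega⟩
  obtain ⟨w, hw⟩ := exists_w (F := F) (n + 1)
  set κ : SL(n + 2 + 2, F) := embSL (eA (n + 2)) (dSL (-1)) with hκ
  let E := embSL (F := F) (eK (n + 2))
  have h01 : (0 : Fin (n + 2)) ≠ 1 := Fin.zero_ne_one
  have dκ : ∀ i : Fin (n + 2 + 2), (if i = pI (n + 2) then ((-1 : Fˣ) : F) else
      if i = Fin.last _ then ((-1 : Fˣ) : F)⁻¹ else 1) ≠ 0 := fun i => by split_ifs <;> simp
  have key : ∀ H : Subgroup SL(n + 2 + 2, F), (∀ a, E (el 0 1 a) ∈ H) → E (el 0 1 1) * (E w * κ) ∈ H →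
      HasK H := fun H h1 h2 => by
    have h3 := (H.mul_mem_cancel_left (h1 1)).1 h2
    have h4 : H.comap E = ⊤ := by
      refine eq_top_of_cyc (by omega) fun i => ?_
      induction i using Fin.induction with
      | zero => exact h1
      | succ i ih =>
        intro a
        have ne : i.castSucc ≠ i.castSucc + 1 := by
          rw [Fin.coeSucc_eq_succ]; exact (Fin.castSucc_lt_succ).ne
        have hε : ∀ x : Fin (n + 1 + 1), (if x.val = n + 1 then (-1 : F) ^ (n + 1) else 1) ≠ 0 :=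
          fun x => by split_ifs <;> simp
        have e1 := mono_conj_el hε (w_apply hw) ne
        have ne' := (Equiv.addRight 1).injective.ne ne
        simp only [Equiv.coe_addRight, Fin.coeSucc_eq_succ] at e1 ih ne'
        have e2 := diag_conj_el dκ (embA_d (-1)) ((eK _).injective.ne ne') a
        rw [← embSL_el _ ne', ← embSL_el _ ne', ← hκ] at e2
        have h5 : E w * κ * E (el i.succ (i.succ + 1) a) * (E w * κ)⁻¹ ∈ H := by
          rw [_root_.mul_inv_rev, mul_assoc (E w), mul_assoc (E w), ← mul_assoc (κ * _), e2, ← mul_assoc,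
            ← map_inv, ← map_mul, ← map_mul, e1]
          exact ih _
        have := H.mul_mem (H.mul_mem (H.inv_mem h3) h5) h3
        simpa [mul_assoc] using this
    refine ⟨fun i j e a1 a2 a3 a4 a => ?_, (H.mul_mem_cancel_left (h4.ge (mem_top w))).1 h3⟩
    obtain ⟨i, rfl⟩ := exists_eK a1 a2
    obtain ⟨j, rfl⟩ := exists_eK a3 a4
    rw [← embSL_el _ fun h => e (by rw [h])]
    exact h4.ge (mem_top _)
  have xa : ∀ s t : F, E (el 0 1 (s + t)) = E (el 0 1 s) * E (el 0 1 t) := fun s t => by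
    rw [stRel_el.add _ _ h01, map_mul]
  have m2 : ∀ H, HasK H → E (el 0 1 1) * (E w * κ) ∈ H := fun H h =>
    H.mul_mem (h.emb _) (H.mul_mem (h.emb _) h.2)
  by_cases hK : Fintype.card F ≤ 3
  · exact ⟨_, _, fun H => ⟨fun h => ⟨h.emb _, m2 H h⟩, fun h => key H (small_ind hK xa h.1) h.2⟩⟩
  obtain ⟨k, hk⟩ := exists_prim_unit (F := F)
  obtain ⟨h, hh⟩ : ∃ h : SL(n + 2, F), h.1 = diagonal (fun i : Fin (n + 2) =>
      if i.val = 0 then (k : F) else if i.val = 1 then ((k⁻¹ : Fˣ) : F) else 1) :=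
    ⟨⟨_, det_diagonal.trans (by simp [Fin.prod_univ_succ])⟩, rfl⟩
  have k2 : (k : F) ^ 2 ≠ 1 := fun e => by
    have := Nat.le_of_dvd (by omega) (dvd_of_pow hk e); omega
  have k1 : (k : F) ≠ 1 := fun e => k2 (by simp [e])
  have hd : ∀ i : Fin (n + 2),
      (if i.val = 0 then (k : F) else if i.val = 1 then ((k⁻¹ : Fˣ) : F) else 1) ≠ 0 := fun i => by
    split_ifs <;> simp
  have hh' := mono_conj_diag (w_apply hw) hh
  obtain ⟨μ, μ1, c2⟩ : ∃ μ : F, μ ≠ 1 ∧ ∀ a, w * h * w⁻¹ * el 0 1 a * (w * h * w⁻¹)⁻¹ =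
      el 0 1 (μ * a) := by
    refine ⟨_, ?_, diag_conj_el (fun _ => hd _) hh' h01⟩
    obtain rfl | hn := n.eq_zero_or_pos
    · simpa [← mul_inv, ← pow_two] using k2
    · have : ((1 + 1 : Fin (n + 2)) : ℕ) = 2 := by
        rw [Fin.val_add, Fin.val_one]; exact Nat.mod_eq_of_lt (by omega)
      simp only [Equiv.coe_addRight, zero_add, Fin.val_one, this]
      simpa using k1
  have e : E w * κ * E h * (E w * κ)⁻¹ = E (w * h * w⁻¹) := by
    rw [mul_assoc _ κ, (diag_commute (embA_d _) (emb_diag _ hh)).eq]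
    simp [mul_assoc, hκ, E]
  refine ⟨E h, _, fun H => ⟨fun h => ⟨h.emb _, m2 H h⟩, fun h' => key H (gen_aux xa hk k2 μ1
    (fun a => ?_) (fun a => ?_) ?_ h'.1 h'.2) h'.2⟩⟩
  · rw [← map_inv, ← map_mul, ← map_mul, diag_conj_el hd hh h01]; simp [pow_two]
  · rw [e, ← map_inv, ← map_mul, ← map_mul, c2]
  · rw [e]; exact (diag_commute hh hh').map E

theorem ck_iff {φ : SL(r + 2, F) →* J'} {σ : J'} : CK φ σ ↔ HasK ((centralizer {σ}).comap φ) := by
  have : ∀ g, g ∈ (centralizer {σ}).comap φ ↔ Commute σ (φ g) := fun g =>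
    mem_centralizer_singleton_iff.trans eq_comm
  simp only [CK, HasK, this]

theorem lift_gJ (φ1 : SL(r + 2, F) →* J') (φ2 : FreeGroup Unit →* J') (x) :
    Monoid.Coprod.lift φ1 φ2 (Monoid.Coprod.lift Monoid.Coprod.inl
      (gJ Monoid.Coprod.inl (Monoid.Coprod.inr (.of ()))) x) =
      Monoid.Coprod.lift φ1 (gJ φ1 (φ2 (.of ()))) x :=
  DFunLike.congr_fun (Monoid.Coprod.hom_ext (f := (Monoid.Coprod.lift φ1 φ2).comp _)
    (MonoidHom.ext fun _ => by simp) (MonoidHom.ext fun _ => by simp [gJ_apply])) x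

theorem lift_cm (φ1 : SL(r + 2, F) →* J') (φ2 : FreeGroup Unit →* J') (g b) :
    let s : Monoid.Coprod SL(r + 2, F) (FreeGroup Unit) := Monoid.Coprod.inr (.of ())
    (Monoid.Coprod.lift φ1 φ2 (s * Monoid.Coprod.inl g * (Monoid.Coprod.inl g * s)⁻¹) = 1 ↔
      g ∈ (centralizer {φ2 (.of ())}).comap φ1) ∧
    (Monoid.Coprod.lift φ1 φ2 (Monoid.Coprod.inl g * gJ Monoid.Coprod.inl s b *
      (gJ Monoid.Coprod.inl s b * Monoid.Coprod.inl g)⁻¹) = 1 ↔ Commute (φ1 g) (gJ φ1 (φ2 (.of ())) b)) := by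
  simp only [map_mul, map_inv, mul_inv_eq_one, gJ_apply, Monoid.Coprod.lift_apply_inl,
    Monoid.Coprod.lift_apply_inr, mem_comap, mem_centralizer_singleton_iff]
  exact ⟨eq_comm, Iff.rfl⟩

theorem pres_Om_of [Fintype F] (hr : 2 ≤ r) {β : Type} {D : β → SL(r + 2, F)} {k : ℕ}
    (h : HasPres D k) (C : List (SL(r + 2, F) × SL(2, F)))
    (h1 : ∀ p ∈ C, p.1 ∈ CG (levO (by omega)) (sO F r))
    (h2 : ∀ (J : Type) [Group J] (φ : SL(r + 2, F) →* J) (σ : J), CK φ σ →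
      (∀ p ∈ C, Commute (φ p.1) (gJ φ σ p.2)) → (∀ a, el 0 1 a ∈ CG φ σ ∧ el 1 0 a ∈ CG φ σ) ∧
        ∀ a, el (pI r) (Fin.last _) a ∈ CG φ σ ∧ el (Fin.last _) (pI r) a ∈ CG φ σ) :
    ∃ D' : β ⊕ Unit → OmP F (r + 2), HasPres D' (k + 3 + C.length) := by
  have h3 : 3 ≤ r + 2 := by omega
  have hr1 : 1 ≤ r := by omega
  obtain ⟨k1, k2, hk⟩ := exists_K_gen (F := F) hr
  let P := Monoid.Coprod SL(r + 2, F) (FreeGroup Unit)
  let s : P := Monoid.Coprod.inr (FreeGroup.of ())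
  let ι : SL(r + 2, F) →* P := Monoid.Coprod.inl
  let π := Monoid.Coprod.lift (levO h3) (gO (F := F) hr1)
  obtain ⟨w, hw⟩ : sO F r ∈ π.range := (om_eq_top hr1 (H := π.range)
    (fun g => ⟨Monoid.Coprod.inl g, rfl⟩) fun g => ⟨Monoid.Coprod.inr g, rfl⟩).ge (mem_top _)
  let θ := Monoid.Coprod.lift ι (gJ ι s)
  let cm : P → P → P := fun x y => x * y * (y * x)⁻¹
  have e0 : FreeGroup.lift (fun _ : Unit => sO F r) (.of ()) = sO F r := by simp
  have := h.amal (hasPres_free Unit) (levO h3) (FreeGroup.lift fun _ => sO F r)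
    ([cm s (ι k1), cm s (ι k2), θ w * s⁻¹] ++ C.map fun p => cm (ι p.1) (gJ ι s p.2)) ?_ ?_
    fun J _ φ1 φ2 hr => ?_
  · exact ⟨_, this.mono (by simp; omega)⟩
  · have e : CK (levO (F := F) h3) (sO F r) := ⟨fun i j => sO_comm_el hr1, sO_comm_kappa hr1⟩
    have e := (hk _).1 (ck_iff.1 e)
    simp only [List.mem_append, List.mem_cons, List.not_mem_nil, or_false, List.mem_map]
    rintro _ ((rfl | rfl | rfl) | ⟨p, hp, rfl⟩)
    · exact (lift_cm _ _ _ 1).1.2 (e0.symm ▸ e.1)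
    · exact (lift_cm _ _ _ 1).1.2 (e0.symm ▸ e.2)
    · rw [map_mul, map_inv, lift_gJ, mul_inv_eq_one, e0]
      exact hw.trans e0.symm
    · exact (lift_cm _ _ _ _).2.2 (e0.symm ▸ mem_CG.1 (h1 p hp) p.2)
  · have m1 : ∀ g, levO h3 g ∈ (levO h3).range ⊔ (FreeGroup.lift fun _ : Unit => sO F r).range :=
      fun g => mem_sup_left ⟨g, rfl⟩
    have m2 : sO F r ∈ (levO h3).range ⊔ (FreeGroup.lift fun _ : Unit => sO F r).range :=
      mem_sup_right ⟨.of (), by simp⟩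
    exact om_eq_top hr1 m1 fun g => mul_mem (mul_mem m2 (m1 _)) (inv_mem m2)
  · simp only [List.mem_append, List.mem_cons, List.not_mem_nil, or_false, List.mem_map, or_imp,
      forall_and, forall_eq, forall_exists_index, and_imp, forall_apply_eq_imp_iff₂] at hr
    obtain ⟨⟨r1, r2, r3⟩, r4⟩ := hr
    have e : CK φ1 (φ2 (.of ())) := ck_iff.2 ((hk _).2 ⟨(lift_cm _ _ _ 1).1.1 r1, (lift_cm _ _ _ 1).1.1 r2⟩)
    obtain ⟨c1, c2⟩ := h2 J φ1 _ e fun p hp => (lift_cm _ _ _ _).2.1 (r4 p hp)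
    obtain ⟨ψ, e1, e2⟩ := om_ct hr φ1 _ e c1 c2
    refine ⟨ψ, e1, DFunLike.congr_fun (FreeGroup.ext_hom (ψ.comp _) φ2 fun _ => ?_)⟩
    rw [map_mul, map_inv, lift_gJ, mul_inv_eq_one] at r3
    have := DFunLike.congr_fun (Monoid.Coprod.hom_ext (f := ψ.comp π) (g := Monoid.Coprod.lift φ1 (gJ φ1 _))
      (MonoidHom.ext e1) (MonoidHom.ext e2)) w
    rw [MonoidHom.comp_apply, hw, r3] at this
    simpa [s] using this

section
variable {φ : SL(r + 2, F) →* J'} {σ : J'} (H : CK φ σ)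
include H

theorem CK.conj {k : SL(r + 2, F)} {d : Fin (r + 2) → F} (hk : k.1 = diagonal d) (hd : ∀ i, d i ≠ 0)
    (hc : Commute σ (φ k)) {g : SL(r + 2, F)} (h : g ∈ CG φ σ) : k * g * k⁻¹ ∈ CG φ σ := by
  let τ : Fˣ := Units.mk0 _ (div_ne_zero (hd (eA r 0)) (hd (eA r 1)))
  refine mem_CG.2 fun b => ?_
  obtain ⟨b, rfl⟩ : ∃ b', dgSL τ b' = b := ⟨dgSL τ⁻¹ b, DFunLike.congr_fun (SL2_hom_ext
    (f := (dgSL τ).comp (dgSL τ⁻¹)) (g := MonoidHom.id _) (fun a => by simp [dgSL_u])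
    fun a => by simp [dgSL_l]) b⟩
  have := (mem_CG.1 h b).map (MulAut.conj (φ k))
  rw [gJ_apply, ← diag_conj_emb _ hk hd (by simp [τ, hd])]
  rw [gJ_apply] at this
  convert this using 1
  · simp
  · simp only [map_mul, map_inv, MulAut.conj_apply, hc.symm.mul_inv_cancel]

theorem CK.mem_of_u {τ : Fˣ} (hτ : τ ≠ 1) (ε ε' : Fin 2 ↪ Fin (r + 2))
    (h1 : ∀ i, ε' i ≠ 0 ∧ ε' i ≠ Fin.last _)
    (h2 : ε 0 = ε' 0 ∧ (∀ i, ε' i ≠ ε 1) ∨ ε 1 = ε' 1 ∧ ∀ i, ε' i ≠ ε 0)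
    (hu : embSL ε (uSL 1 * lSL (-1)) ∈ CG φ σ) (a : F) :
    el (ε 0) (ε 1) a ∈ CG φ σ ∧ el (ε 1) (ε 0) a ∈ CG φ σ := by
  have n : ε' 0 ≠ ε' 1 := ε'.injective.ne (by decide)
  have := eq_top_of_dg hτ (H := (CG φ σ).comap (embSL ε)) (fun μ g hg => ?_) hu
  · exact ⟨emb_u ε a ▸ this.ge (mem_top (uSL a)), emb_l ε a ▸ this.ge (mem_top (lSL a))⟩
  have e : (dSL μ).1 = diagonal ![(μ : F), (μ : F)⁻¹] := by
    ext i j; fin_cases i <;> fin_cases j <;> simp
  have hd : ∀ i, Function.extend ε' ![(μ : F), (μ : F)⁻¹] 1 i ≠ 0 := fun i => by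
    by_cases h : ∃ x, ε' x = i
    · obtain ⟨x, rfl⟩ := h
      rw [ε'.injective.extend_apply]; fin_cases x <;> simp
    · simp [Function.extend_apply' _ _ _ h]
  rw [mem_comap, ← diag_conj_emb ε (emb_diag ε' e) hd]
  · refine H.conj (emb_diag ε' e) hd ?_ hg
    exact mem_centralizer_singleton_iff.1 (emb_mem (H := (centralizer {σ}).comap φ) ε' (fun a =>
      ⟨(ck_iff.1 H).1 _ _ n (h1 _).1 (h1 _).2 (h1 _).1 (h1 _).2 a,
        (ck_iff.1 H).1 _ _ n.symm (h1 _).1 (h1 _).2 (h1 _).1 (h1 _).2 a⟩) _) |>.symm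
  · rcases h2 with ⟨e1, e2⟩ | ⟨e1, e2⟩
    · rw [e1, ε'.injective.extend_apply, Function.extend_apply' _ _ _ (not_exists.2 e2)]; simp
    · rw [e1, ε'.injective.extend_apply, Function.extend_apply' _ _ _ (not_exists.2 e2)]; simp

end

theorem mem_CG_of_two {φ : SL(r + 2, F) →* J'} {σ : J'} {g1 g2 : SL(2, F)} (hg : closure {g1, g2} = ⊤)
    {u : SL(r + 2, F)} (h1 : Commute (φ u) (gJ φ σ g1)) (h2 : Commute (φ u) (gJ φ σ g2)) :
    u ∈ CG φ σ :=
  mem_CG.2 (cm_of _ _ (two_ext hg _ _ (mul_inv_eq_of_eq_mul h1.eq) (mul_inv_eq_of_eq_mul h2.eq)))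

/-- An embedding of a pair of indices. -/
def pr {ι : Type*} {i j : ι} (h : i ≠ j) : Fin 2 ↪ ι :=
  ⟨![i, j], fun x y => by fin_cases x <;> fin_cases y <;> simp [h, h.symm]⟩

@[simp] theorem pr_zero {ι : Type*} {i j : ι} (h : i ≠ j) : pr h 0 = i := rfl

@[simp] theorem pr_one {ι : Type*} {i j : ι} (h : i ≠ j) : pr h 1 = j := rfl

theorem pr_mid (hr : 2 ≤ r) : ∃ n : pI r ≠ 1, ∀ i, pr n i ≠ 0 ∧ pr n i ≠ Fin.last _ := by
  refine ⟨by simp only [Ne, Fin.ext_iff, pI]; simp; omega, fun i => ?_⟩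
  fin_cases i
  exacts [⟨pI_ne_zero (by omega), pI_ne⟩, ⟨Fin.zero_ne_one.symm, fun h => by
    have := congrArg Fin.val h; simp at this; omega⟩]

theorem CG_O (hr : 2 ≤ r) (b : SL(2, F)) :
    embSL (pr Fin.zero_ne_one) b ∈ CG (levO (by omega)) (sO F r) ∧
      embSL (eA r) b ∈ CG (levO (by omega)) (sO F r) := by
  have : (0 : Fin (r + 2)) ≠ pI r ∧ (0 : Fin (r + 2)) ≠ Fin.last _ ∧ (1 : Fin (r + 2)) ≠ pI r ∧
      (1 : Fin (r + 2)) ≠ Fin.last _ := by simp only [Ne, Fin.ext_iff, pI]; simp; omega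
  have hr1 : 1 ≤ r := by omega
  have e := fun {i j : Fin (r + 2)} (h : i ≠ j) h1 (a : F) =>
    (mem_CG (φ := levO (by omega)) (σ := sO F r)).2 (comm_gO hr1 h h1 a)
  exact ⟨emb_mem _ (fun a => ⟨e Fin.zero_ne_one (.inl this) a,
    e Fin.zero_ne_one.symm (.inl ⟨this.2.2.1, this.2.2.2, this.1, this.2.1⟩) a⟩) b,
    emb_mem _ (fun a => ⟨e pI_ne (.inr (.inl ⟨rfl, rfl⟩)) a, e pI_ne.symm (.inr (.inr ⟨rfl, rfl⟩)) a⟩) b⟩

theorem CK.last {φ : SL(r + 2, F) →* J'} {σ : J'} (H : CK φ σ) (hr : 2 ≤ r) {τ : Fˣ} (hτ : τ ≠ 1)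
    (hu : embSL (eA r) (uSL 1 * lSL (-1)) ∈ CG φ σ) (a : F) :
    el (pI r) (Fin.last _) a ∈ CG φ σ ∧ el (Fin.last _) (pI r) a ∈ CG φ σ := by
  obtain ⟨n, n1⟩ := pr_mid hr
  exact H.mem_of_u hτ (eA r) (pr n) n1 (.inl ⟨rfl, fun i => (n1 i).2⟩) hu a

theorem mem_of_six {G : Type*} [Group G] {H : Subgroup G} {a b : G} (h : Commute a b) (ha : a ^ 2 = 1)
    (hb : b ^ 3 = 1) (m : a * b ∈ H) : a ∈ H ∧ b ∈ H := by
  have : a ∈ H := by simpa [h.mul_pow, hb, pow_succ a 2, ha] using H.pow_mem m 3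
  exact ⟨this, (H.mul_mem_cancel_left this).1 m⟩

theorem pres_Om_four [Fintype F] (hr : 2 ≤ r) {β : Type} {D : β → SL(r + 2, F)} {k : ℕ}
    (h : HasPres D k) : ∃ D' : β ⊕ Unit → OmP F (r + 2), HasPres D' (k + 7) := by
  obtain ⟨g1, g2, hg⟩ := exists_two_gen_SL2 (F := F)
  let u : SL(2, F) := uSL 1 * lSL (-1)
  let B := embSL (F := F) (pr (ι := Fin (r + 2)) Fin.zero_ne_one)
  let A := embSL (F := F) (eA r)
  by_cases hq : ∃ τ : Fˣ, τ ≠ 1
  · obtain ⟨τ, hτ⟩ := hq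
    refine pres_Om_of hr h [(B u, g1), (B u, g2), (A u, g1), (A u, g2)] (by simp [A, B, CG_O hr, -map_mul])
      fun J _ φ σ H hc => ?_
    simp only [List.mem_cons, List.not_mem_nil, or_false, forall_eq_or_imp, forall_eq] at hc
    obtain ⟨n, n1⟩ := pr_mid hr
    exact ⟨H.mem_of_u hτ (pr Fin.zero_ne_one) (pr n) n1 (.inr ⟨rfl, fun i => (n1 i).1⟩)
      (mem_CG_of_two hg hc.1 hc.2.1), H.last hr hτ (mem_CG_of_two hg hc.2.2.1 hc.2.2.2)⟩
  have h2 : (-1 : F) = 1 := congrArg Units.val (not_not.1 (not_exists.1 hq (-1)))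
  have hK : Fintype.card F ≤ 3 := by
    classical
    have : Fintype.card Fˣ ≤ 1 := Fintype.card_le_one_iff.2 fun a b =>
      (not_not.1 (not_exists.1 hq a)).trans (not_not.1 (not_exists.1 hq b)).symm
    rw [Fintype.card_units] at this; omega
  have x2 : (uSL 1 : SL(2, F)) ^ 2 = 1 := by
    rw [pow_two, ← uSL_add, add_eq_zero_iff_eq_neg.2 h2.symm, uSL_zero]
  have u3 : u ^ 3 = 1 := by
    ext i j; fin_cases i <;> fin_cases j <;> simp [u, pow_succ, Matrix.mul_apply, Fin.sum_univ_two] <;> exact h2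
  have cAB : ∀ a b, Commute (A a) (B b) := fun a b => Subtype.ext (emb_commute _ _ (fun x y => by
    fin_cases x <;> fin_cases y <;> simp only [Ne, Fin.ext_iff] <;> simp [eA] <;> omega) _ _)
  have key : ∀ (ε : Fin 2 ↪ Fin (r + 2)) (H : Subgroup SL(r + 2, F)), embSL ε (uSL 1) ∈ H →
      embSL ε u ∈ H → ∀ a, el (ε 0) (ε 1) a ∈ H ∧ el (ε 1) (ε 0) a ∈ H := fun ε H m1 m2 a => by
    rw [map_mul, H.mul_mem_cancel_left m1, h2] at m2
    exact ⟨emb_u ε a ▸ small_ind (H := H.comap (embSL ε)) hK uSL_add m1 a,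
      emb_l ε a ▸ small_ind (H := H.comap (embSL ε)) hK lSL_add m2 a⟩
  refine pres_Om_of hr h [(B (uSL 1) * A u, g1), (B (uSL 1) * A u, g2), (A (uSL 1) * B u, g1),
    (A (uSL 1) * B u, g2)] (by simp [A, B, CG_O hr, -map_mul, mul_mem]) fun J _ φ σ H hc => ?_
  simp only [List.mem_cons, List.not_mem_nil, or_false, forall_eq_or_imp, forall_eq] at hc
  have m1 := mem_of_six (cAB _ _).symm (by rw [← map_pow, x2, map_one]) (by rw [← map_pow, u3, map_one])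
    (mem_CG_of_two hg hc.1 hc.2.1)
  have m2 := mem_of_six (cAB _ _) (by rw [← map_pow, x2, map_one]) (by rw [← map_pow, u3, map_one])
    (mem_CG_of_two hg hc.2.2.1 hc.2.2.2)
  exact ⟨key _ _ m1.1 m2.2, key _ _ m2.1 m1.2⟩

theorem pres_Om_three [Fintype F] (hr : 3 ≤ r) {τ : Fˣ} (hτ : τ ≠ 1) {β : Type} {D : β → SL(r + 2, F)}
    {k : ℕ} (h : HasPres D k) : ∃ D' : β ⊕ Unit → OmP F (r + 2), HasPres D' (k + 6) := by
  obtain ⟨g1, g2, hg⟩ := exists_two_gen_SL2 (F := F)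
  let u : SL(2, F) := uSL 1 * lSL (-1)
  let A := embSL (F := F) (eA r)
  have h01 : (0 : Fin (r + 2)) ≠ 1 := Fin.zero_ne_one
  have e : ∀ ε : Fin 2 ↪ Fin (r + 2), embSL ε (nn el 0 1 (1 : F)) = nn el (ε 0) (ε 1) 1 := fun ε => by
    simp [nn, embSL_el]
  refine pres_Om_of (by omega) h [(embSL (pr h01) (nn el 0 1 1), nn el 1 0 1), (A u, g1), (A u, g2)]
    (by simp [A, CG_O (show 2 ≤ r by omega), -map_mul]) fun J _ φ σ H hc => ?_
  simp only [List.mem_cons, List.not_mem_nil, or_false, forall_eq_or_imp, forall_eq, e] at hc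
  refine ⟨?_, H.last (by omega) hτ (mem_CG_of_two hg hc.2.1 hc.2.2)⟩
  let q : Fin (r + 2) := ⟨r - 1, by omega⟩
  let t : Fin (r + 2) := ⟨2, by omega⟩
  have S := stRel_el (ι := Fin (r + 2)) (F := F)
  have m1 : ∀ i j : Fin (r + 2), i ≠ j → 1 < i.val → i.val ≤ r → 1 < j.val → j.val ≤ r → ∀ a, el i j a ∈
      (centralizer {φ (nn el 0 1 1)}).comap ((MulAut.conj σ).toMonoidHom.comp φ) := by
    intro i j n a1 a2 a3 a4 a
    have : ∀ {x : Fin (r + 2)}, 1 < x.val → x.val ≤ r → x ≠ 0 ∧ x ≠ 1 ∧ x ≠ Fin.last _ := fun b1 b2 => by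
      simp only [Ne, Fin.ext_iff, Fin.val_zero, Fin.val_one, Fin.val_last]; omega
    have b := this a1 a2
    have c := this a3 a4
    refine mem_centralizer_singleton_iff.2 ?_
    rw [show (MulAut.conj σ).toMonoidHom.comp φ (el i j a) = φ (el i j a) from
      mul_inv_eq_of_eq_mul (H.1 _ _ n b.1 b.2.2 c.1 c.2.2 a).eq]
    exact (((S.dis _ _ _ _ n b.1 b.2.1 c.1 c.2.1 h01 _ _).mul_right
      (S.dis _ _ _ _ n b.2.1 b.1 c.2.1 c.1 h01.symm _ _)).mul_right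
      (S.dis _ _ _ _ n b.1 b.2.1 c.1 c.2.1 h01 _ _)).map φ
  have nq : pI r ≠ q := by simp only [Ne, Fin.ext_iff, pI, q]; omega
  have m2 := mem_of_nn (i := Fin.last _) (j := pI r) (k := q)
    (H := (centralizer {φ (nn el 0 1 1)}).comap ((MulAut.conj σ).toMonoidHom.comp φ)) pI_ne.symm
    (by simp only [Ne, Fin.ext_iff, q]; simp; omega) nq
    (mem_centralizer_singleton_iff.2 (by simpa [nn, embSL_el, gJ_apply, eA_zero, eA_one] using hc.1.symm.eq))
    fun a => ⟨m1 _ _ nq (by simp [pI]; omega) (by simp [pI]) (by simp [q]; omega) (by simp [q]) a,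
      m1 _ _ nq.symm (by simp [q]; omega) (by simp [q]) (by simp [pI]; omega) (by simp [pI]) a⟩
  have m3 : nn el 0 1 1 ∈ CG φ σ := mem_CG.2 (cm_of' _ _
    (fun a => by rw [gJ_apply, embA_u]; exact (mem_centralizer_singleton_iff.1 (m2 a).2).symm)
    fun a => by rw [gJ_apply, embA_l]; exact (mem_centralizer_singleton_iff.1 (m2 a).1).symm)
  have m4 : ∀ i j : Fin (r + 2), i ≠ j → 0 < i.val → i.val < r → 0 < j.val → j.val < r → ∀ a,
      el i j a ∈ CG φ σ := by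
    intro i j n a1 a2 a3 a4 a
    have : ∀ {x : Fin (r + 2)}, 0 < x.val → x.val < r → x ≠ 0 ∧ x ≠ pI r ∧ x ≠ Fin.last _ := fun b1 b2 => by
      simp only [Ne, Fin.ext_iff, pI, Fin.val_zero, Fin.val_last]; omega
    have b := this a1 a2
    have c := this a3 a4
    have e := (H.1 _ _ n b.1 b.2.2 c.1 c.2.2 a).symm
    refine mem_CG.2 (cm_of' _ _ (fun x => ?_) fun x => ?_)
    · rw [gJ_apply, embA_u]
      exact (e.mul_right ((S.dis _ _ _ _ n b.2.1 b.2.2 c.2.1 c.2.2 pI_ne _ _).map φ)).mul_right e.inv_right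
    · rw [gJ_apply, embA_l]
      exact (e.mul_right ((S.dis _ _ _ _ n b.2.2 b.2.1 c.2.2 c.2.1 pI_ne.symm _ _).map φ)).mul_right
        e.inv_right
  have nt : (1 : Fin (r + 2)) ≠ t := by simp [Fin.ext_iff, t]
  exact mem_of_nn h01 (k := t) (by simp [Fin.ext_iff, t]) nt m3 fun a =>
    ⟨m4 _ _ nt (by simp) (by simp; omega) (by simp [t]) (by simp [t]; omega) a,
      m4 _ _ nt.symm (by simp [t]) (by simp [t]; omega) (by simp) (by simp; omega) a⟩

theorem pres_SLn_five' [Fintype F] {n : ℕ} (hn : 5 ≤ n) {β γ : Type} {D : β → SL(3, F)} {k : ℕ}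
    (h1 : HasPres D k) {E : γ → alternatingGroup (Fin n)} {l : ℕ} (h2 : HasPres E l) :
    ∃ D' : β ⊕ γ → SL(n, F), HasPres D' (k + l + 5) := by
  let e : ℕ → Fin n := fun i => if h : i < 5 then ⟨i, by omega⟩ else ⟨0, by omega⟩
  have he : ∀ i < 5, ∀ j < 5, i ≠ j → e i ≠ e j := fun i hi j hj h => by
    simp [e, hi, hj, h]
  have h01 := he 0 (by omega) 1 (by omega) (by omega)
  have h02 := he 0 (by omega) 2 (by omega) (by omega)
  have h03 := he 0 (by omega) 3 (by omega) (by omega)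
  have h04 := he 0 (by omega) 4 (by omega) (by omega)
  have h12 := he 1 (by omega) 2 (by omega) (by omega)
  have h13 := he 1 (by omega) 3 (by omega) (by omega)
  have h14 := he 1 (by omega) 4 (by omega) (by omega)
  have h23 := he 2 (by omega) 3 (by omega) (by omega)
  have h24 := he 2 (by omega) 4 (by omega) (by omega)
  have h34 := he 3 (by omega) 4 (by omega) (by omega)
  obtain ⟨τ, hτ, hG⟩ := exists_tau h01 h03 h13
  let ρ : alternatingGroup (Fin n) :=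
    ⟨Equiv.swap (e 0) (e 1) * Equiv.swap (e 3) (e 4), by simp [h01, h34]⟩
  have t0 : ρ.1 (e 0) = e 1 := by simp [ρ, Equiv.swap_apply_of_ne_of_ne h03 h04]
  exact pres_SLn_of (by omega) h1 h2 h01 h02 h03 h12 h13 h23 τ hτ [ρ] (by
    simp only [List.mem_singleton, forall_eq]
    refine ⟨t0, by simp [ρ, Equiv.swap_apply_of_ne_of_ne h13 h14], by
      simp [ρ, Equiv.swap_apply_of_ne_of_ne h23 h24, Equiv.swap_apply_of_ne_of_ne h02.symm h12.symm],
      Subtype.ext ?_⟩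
    change Equiv.swap (e 0) (e 1) * Equiv.swap (e 3) (e 4) *
      (Equiv.swap (e 0) (e 1) * Equiv.swap (e 3) (e 4)) = 1
    rw [mul_assoc, ← mul_assoc (Equiv.swap (e 3) (e 4)), Equiv.mul_swap_eq_swap_mul (Equiv.swap (e 3) (e 4)),
      Equiv.swap_apply_of_ne_of_ne h03 h04, Equiv.swap_apply_of_ne_of_ne h13 h14]
    simp [mul_assoc]) fun G h h' => by
      have hρ := h' ρ (by simp)
      refine ⟨fun σ t0 t1 => ?_, ρ, hρ, t0⟩
      obtain ⟨σ', h, e⟩ := hG (G.map (Subgroup.subtype _)) ⟨τ, h, rfl⟩ (e 4) h04.symm h14.symm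
        h34.symm ⟨ρ, hρ, rfl⟩ (x := σ.1) ⟨σ.2, fun x hx => by
          by_cases e1 : x = e 1
          · rw [e1, t1]
          · obtain rfl : x = e 0 := by simpa [e1] using hx
            exact t0⟩
      obtain rfl : σ' = σ := Subtype.ext e
      exact h

theorem pres_SL3_two [Fintype F] (hq : ∀ τ : Fˣ, τ = 1) : ∃ D : Fin 4 → SL(3, F), HasPres D 11 := by
  have : CharP F 2 := CharTwo.of_one_ne_zero_of_two_eq_zero one_ne_zero (by
    have : (-1 : F) = 1 := congrArg Units.val (hq (-1))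
    linear_combination -this)
  letI := ZMod.algebra F 2
  have hζ : ∀ a : Fˣ, ∃ k : ℕ, (1 : Fˣ) ^ k = a := fun a => ⟨0, (hq _).trans (hq a).symm⟩
  refine pres_SL3_of hζ (pres_SL2_two hζ) [1] fun P h0 _ _ hs a => ?_
  by_cases h : a = 0
  · exact h ▸ h0
  · obtain rfl : a = 1 := congrArg Units.val (hq (Units.mk0 a h))
    exact hs 1 (by simp)

theorem pres_Om [Fintype F] {n : ℕ} (hn : 4 ≤ n) :
    ∃ D : Fin 8 → OmP F n, HasPres D (if n ≤ 5 then 29 else 31) := by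
  obtain ⟨r, rfl⟩ : ∃ r, n = r + 2 := ⟨n - 2, by omega⟩
  obtain rfl | h3 := (show 2 ≤ r by omega).eq_or_lt
  · obtain ⟨D, h⟩ := pres_SL4 (F := F)
    obtain ⟨D', h'⟩ := pres_Om_four le_rfl (h.snoc (by omega))
    exact h'.exists_fin (by simp)
  by_cases hq : ∃ τ : Fˣ, τ ≠ 1
  · obtain ⟨τ, hτ⟩ := hq
    obtain rfl | h4 := (show 3 ≤ r by omega).eq_or_lt
    · obtain ⟨D, h⟩ := pres_SL5 (F := F)
      obtain ⟨D', h'⟩ := pres_Om_three le_rfl hτ (h.snoc (by omega))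
      exact h'.exists_fin (by simp)
    · obtain ⟨D, h⟩ := pres_SLn' (F := F) hn
      obtain ⟨D', h'⟩ := pres_Om_three h3 hτ h
      rw [if_neg (by omega)]
      exact h'.exists_fin (by simp)
  obtain ⟨D0, h0⟩ := pres_SL3_two (F := F) (by simpa using hq)
  obtain rfl | h4 := (show 3 ≤ r by omega).eq_or_lt
  · obtain ⟨E, h2⟩ := pres_alt_small 2
    obtain ⟨D, h⟩ := pres_SLn_five' (F := F) le_rfl h0 h2
    obtain ⟨D, h⟩ := h.exists_fin (m := 6) (by simp)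
    obtain ⟨D', h'⟩ := pres_Om_four (r := 3) (by omega) (h.snoc (by omega))
    exact (h'.mono (by simp)).exists_fin (by simp)
  · obtain ⟨E, h2⟩ := (pres_alt (n := r + 2) (by omega)).1
    obtain ⟨D, h⟩ := pres_SLn_five' (F := F) (by omega) h0 h2
    obtain ⟨D', h'⟩ := pres_Om_four (by omega) h
    rw [if_neg (by omega)]
    exact (h'.mono (by simp)).exists_fin (by simp)

theorem isCyclic_center_Om [Finite F] {n : ℕ} (hn : 3 ≤ n) : IsCyclic (center (OmP F n)) := by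
  have hd : Module.finrank F (Fin n ⊕ Fin n → F) = n + n := by simp
  have h := Geom.card_center_of_eich (Geom.quadPlus_nondeg F n) (by omega)
    (Geom.exists_sing_of_finite _ (by omega))
    (Geom.eich_mem_commutator (Geom.quadPlus_nondeg F n) (Geom.notExc_of_finrank (by omega)))
  have e := Subgroup.centerCongr (Geom.omegaEquiv (Geom.quadPlus F n))
  rw [← Nat.card_congr e.toEquiv, Geom.coe_quadPlus] at h
  split_ifs at h
  · exact isCyclic_of_prime_card (hp := ⟨Nat.prime_two⟩) h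
  · have := (Nat.card_eq_one_iff_unique.1 h).1
    infer_instance

end Cfsg.Agent.Pres
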