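import Cfsg.Agent.Pres.SUn
import Cfsg.Agent.Pres.Spn2
import Cfsg.Agent.Classical.Triangle
import Cfsg.Agent.S0281

/-! Presentations of `SU(3, 2)` and of `SU(n, q)` for `n ≥ 4`. -/

set_option autoImplicit false

namespace Cfsg.Agent.Pres

open Subgroup _root_.Cfsg.Agent.Classical Matrix
open scoped MatrixGroups

variable {F : Type*} [Field F] {q n : ℕ}

section
variable {σ : F →+* F} [hσ : Fact (∀ x, σ (σ x) = x)] [Fintype F] [hF : Fact (Fintype.card F = q ^ 2)]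
  (hq : ∀ x, σ x = x ^ q) {ζ : Fˣ} (hζ : ∀ a : Fˣ, ∃ k : ℕ, ζ ^ k = a)
include hq hζ

theorem pres_UG3_of {D : Fin 2 → B3 σ} {k : ℕ} (hu : HasPres D k) :
    ∃ D : Fin 2 ⊕ Unit → UG σ 3, HasPres D (k + 0 + 6) := by
  obtain ⟨θ, θ0, hθ⟩ := exists_trace_zero F q
  have hθ : σ θ = -θ := by rw [hq, eq_neg_of_add_eq_zero_right hθ]
  have ζr : σ ζ ≠ ζ := fun e => by
    obtain ⟨a, ha⟩ := exists_pow_q_ne F q
    obtain ⟨k, hk⟩ := hζ (Units.mk0 a fun e => ha (by simp [e, q_ne_zero F (q := q)]))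
    exact ha (by rw [← hq, ← show (ζ : F) ^ k = a by simpa using congrArg Units.val hk, map_pow, e])
  obtain ⟨α0, ok0⟩ : ∃ α, Ok3 σ α (θ * ζ) := by
    obtain ⟨x, hx⟩ := exists_norm_eq (q := q) (c := -(θ * ζ + σ (θ * ζ))) (by rw [← hq]; simp [add_comm])
    exact ⟨x, by rw [Ok3, hq x, hx, add_neg_cancel]⟩
  have x1 : (ζ : F) ^ (q - 1) * σ (ζ ^ (q - 1)) = 1 := by
    rw [hq, ← pow_succ', ← pow_mul, mul_comm, ← sq_sub_one_eq, ← hF.out]
    exact FiniteField.pow_card_sub_one_eq_one _ ζ.ne_zero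
  have ok1 : ∀ i, Ok3 σ (((ζ : F) ^ (q - 1)) ^ i * α0) (θ * ζ) := fun i => by
    rw [Ok3, map_mul σ (_ ^ _), map_pow σ _ i, mul_mul_mul_comm, ← mul_pow, x1, one_pow, one_mul]
    exact ok0
  have b0 : θ * ζ ≠ 0 := by simp [θ0]
  have oθ : Ok3 σ 0 θ := by simp [Ok3, hθ]
  let s : Monoid.Coprod (B3 σ) (FreeGroup Unit) := .inr (.of ())
  let R : ∀ (α β : F), β ≠ 0 → Monoid.Coprod (B3 σ) (FreeGroup Unit) := fun α β h => s * .inl (uB α β) * s *
    (.inl (uB (-α / σ β) β⁻¹ * hB (ci σ (Units.mk0 β h))) * s * .inl (uB (-α / β) β⁻¹))⁻¹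
  have e0 : FreeGroup.lift (fun _ : Unit => t3 σ) (.of ()) = t3 σ := by simp
  refine ⟨_, hu.amal (hasPres_free Unit) (B3 σ).subtype (FreeGroup.lift fun _ => t3 σ)
    [s * s, s * .inl (hB ζ) * s * (.inl (hB (ci σ ζ)))⁻¹, R 0 θ θ0, R (((ζ : F) ^ (q - 1)) ^ 0 * α0) _ b0,
      R (((ζ : F) ^ (q - 1)) ^ 1 * α0) _ b0, R (((ζ : F) ^ (q - 1)) ^ 2 * α0) _ b0] ?_ ?_
    fun J _ φ φ2 hr => ?_⟩
  · simp only [List.mem_cons, List.not_mem_nil, or_false, forall_eq_or_imp, forall_eq, map_mul, map_inv, R, s,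
      Monoid.Coprod.lift_apply_inl, Monoid.Coprod.lift_apply_inr, e0, mul_inv_eq_one, coe_subtype, coe_uB,
      coe_hB]
    simp only [← map_mul σ]
    exact ⟨t3_sq, t3_h ζ, t3_u oθ θ0, t3_u (ok1 0) b0, t3_u (ok1 1) b0, t3_u (ok1 2) b0⟩
  · rw [range_subtype, eq_top_iff, ← B3_sup]
    exact sup_le_sup_left (zpowers_le.2 (MonoidHom.mem_range.2 ⟨_, e0⟩)) _
  simp only [List.mem_cons, List.not_mem_nil, or_false, forall_eq_or_imp, forall_eq, map_mul _ (_ * s),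
    map_mul _ _ s, map_mul _ s, map_mul _ _ (_⁻¹), map_inv, R,
    Monoid.Coprod.lift_apply_inl, mul_inv_eq_one] at hr
  obtain ⟨r1, r2, r3, r4, r5, r6⟩ := hr
  set τ := Monoid.Coprod.lift φ φ2 s
  have r2 : ∀ l, τ * φ (hB l) * τ = φ (hB (ci σ l)) := fun l => by
    obtain ⟨k, rfl⟩ := hζ l
    rw [show ci σ (ζ ^ k) = ci σ ζ ^ k by simp [ci], map_pow, map_pow, map_pow, map_pow, ← r2]
    simpa only [← eq_inv_of_mul_eq_one_left r1] using (conj_pow (a := τ) (b := φ (hB ζ)) (i := k)).symm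
  have k : ∀ {α β} (o : Ok3 σ α β) (h : β ≠ 0), τ * φ (uB α β) * τ = φ (uB (-α / σ β) β⁻¹ *
      hB (ci σ (Units.mk0 β h))) * τ * φ (uB (-α / β) β⁻¹) → Rel3 φ τ (uB α β) := fun o h e =>
    ⟨_, _, by simpa only [Subgroup.coe_mul, coe_uB, coe_hB] using t3_u o h, e⟩
  obtain ⟨ψ, e1, e2⟩ := rank_one_hom t3_notMem B3_sup φ τ (fun b => by
    obtain ⟨α, β, l, ok, e⟩ := mem_B3.1 b.2
    obtain rfl : b = uB α β * hB l := Subtype.ext e
    by_cases h : β = 0
    · obtain rfl : α = 0 := by simpa [Ok3, h] using ok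
      rw [h, uB_zero, one_mul]
      exact .inl ⟨_, t3_h l, r2 l⟩
    have := (rel3_all r1 r2 hq hζ ζr θ0 hθ ok0 (k oθ _ r3) (fun i hi => by
      interval_cases i
      exacts [k (ok1 _) _ r4, k (ok1 _) _ r5, k (ok1 _) _ r6]) ok h).conj r1 r2 1 l
    rw [map_one, one_mul] at this
    exact .inr this)
    ⟨1, t3_sq, r1.trans (map_one φ).symm⟩
  exact ⟨ψ, e1, DFunLike.congr_fun (FreeGroup.ext_hom (ψ.comp _) φ2 fun _ => by simpa [τ, s] using e2)⟩

theorem pres_B3_two (h2 : q = 2) : ∃ D : Fin 2 → B3 σ, HasPres D 3 := by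
  subst h2
  have c2 : (2 : F) = 0 := by
    have := FiniteField.cast_card_eq_zero F
    rw [hF.out] at this
    exact mul_self_eq_zero.1 (by rw [← this]; norm_num)
  have z3 : (ζ : F) ^ 3 = 1 := by simpa [hF.out] using FiniteField.pow_card_sub_one_eq_one _ ζ.ne_zero
  have z1 : (ζ : F) ≠ 1 := fun e => by simpa [hF.out] using dvd_of_pow hζ (m := 1) (by simp [e])
  have z2 : (ζ : F) ^ 2 = ζ + 1 := by
    have : ((ζ : F) - 1) * (ζ ^ 2 + ζ + 1) = 0 := by linear_combination z3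
    linear_combination (mul_eq_zero.1 this).resolve_left (sub_ne_zero.2 z1) - (ζ + 1 : F) * c2
  have o1 : Ok3 σ 1 ζ := by simp only [Ok3, hq]; linear_combination z2 + (ζ + 1 : F) * c2
  have o2 : Ok3 σ ζ ζ := by simp only [Ok3, hq]; linear_combination z2 + z3 + (ζ + 1 : F) * c2
  have o3 : Ok3 σ 0 1 := by simp only [Ok3, hq]; linear_combination c2
  have hc : ∀ {α β}, Ok3 σ α β → Commute (uB α β : B3 σ) (hB ζ) := fun ok => by
    rw [commute_iff_eq, eq_comm, ← mul_inv_eq_iff_eq_mul, hB_conj ok, hq, div_self (by simp), ← pow_succ', z3,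
      one_mul, one_mul]
  have h3 : (hB ζ : B3 σ) ^ 3 = 1 := by rw [← map_pow, show ζ ^ 3 = 1 from Units.ext z3, map_one]
  have u2 : (uB 1 (ζ : F) : B3 σ) ^ 2 = uB 0 1 := by
    rw [sq, uB_mul o1 o1]; congr 1
    exacts [by linear_combination c2, by rw [map_one]; linear_combination (ζ - 1 : F) * c2]
  have u4 : (uB 1 (ζ : F) : B3 σ) ^ 4 = 1 := by
    rw [pow_mul _ 2 2, u2, sq, uB_mul o3 o3, ← uB_zero]; congr 1 <;> simp; linear_combination c2
  have a : ∀ k : ℕ, (uB 1 (ζ : F) * hB ζ : B3 σ) ^ k = uB 1 (ζ : F) ^ (k % 4) * hB ζ ^ (k % 3) := fun k => by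
    rw [(hc o1).mul_pow, ← pow_eq_pow_mod _ u4, ← pow_eq_pow_mod _ h3]
  have a6 : (uB 1 (ζ : F) * hB ζ : B3 σ) ^ 6 ≠ 1 := fun e => by
    have := congrArg (fun g : B3 σ => g.1.1.1 0 2) ((a 6).symm.trans e)
    simp [u2, coe_uB, u3_val o3] at this
  have ord : orderOf (uB 1 (ζ : F) * hB ζ : B3 σ) = 12 := orderOf_eq_of_pow_and_pow_div_prime (by simp) (by simp [a])
    fun p hp hd e => by
      obtain rfl | rfl : p = 2 ∨ p = 3 := by
        have := Nat.le_of_dvd (by simp) hd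
        interval_cases p <;> simp_all (config := {decide := true})
      · exact a6 e
      have := congrArg (fun g : B3 σ => g.1.1.1 0 0) ((a 4).symm.trans e)
      simp [coe_hB, h3_val, z1] at this
  have e7 : (uB (ζ : F) (ζ : F) * (uB 1 (ζ : F) * hB ζ) * (uB (ζ : F) (ζ : F))⁻¹ : B3 σ) = (uB 1 (ζ : F) * hB ζ) ^ 7 := by
    rw [a, mul_inv_eq_iff_eq_mul, pow_one, mul_assoc, ← (hc o2).eq, ← mul_assoc, ← mul_assoc,
      ← inv_eq_of_mul_eq_one_left ((pow_succ _ 3).symm.trans u4), uB_inv o1, uB_mul o2 o1, uB_mul o1.neg o2]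
    congr 2
    exacts [by linear_combination c2, by simp only [hq]; linear_combination (-ζ ^ 2 : F) * c2]
  refine ⟨![uB 1 (ζ : F) * hB ζ, uB (ζ : F) (ζ : F)], hasPres_of_inj _ [.of 0 ^ 12, .of 1 * .of 1 * (.of 0 ^ 6)⁻¹,
    .of 1 * .of 0 * (.of 1)⁻¹ * (.of 0 ^ 7)⁻¹] ?_ (eq_top_iff.2 fun g _ => ?_) fun J _ x π hx h1 hr => ?_⟩
  · simp only [List.forall_mem_cons, map_mul, map_pow, map_inv, FreeGroup.lift_apply_of, cons_val_zero, cons_val_one,
      mul_inv_eq_one, e7, a 12, a 6, u2]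
    refine ⟨by simp, ?_, trivial, by simp⟩
    rw [uB_mul o2 o2, pow_zero, mul_one]; congr 1
    exacts [by linear_combination (ζ : F) * c2, by rw [hq]; linear_combination (ζ - 1 : F) * c2 - z3]
  · obtain ⟨α, β, l, ok, e⟩ := mem_B3.1 g.2
    obtain rfl : g = uB α β * hB l := Subtype.ext e
    obtain ⟨k, rfl⟩ := hζ l
    rw [range_two]
    have m0 : _ ∈ closure {uB 1 (ζ : F) * hB ζ, (uB (ζ : F) (ζ : F) : B3 σ)} := subset_closure (.inl rfl)
    have m1 : _ ∈ closure {uB 1 (ζ : F) * hB ζ, (uB (ζ : F) (ζ : F) : B3 σ)} := subset_closure (.inr rfl)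
    have m2 := pow_mem m0 9
    have m3 := pow_mem m0 4
    simp only [a, Nat.reduceMod, pow_zero, pow_one, mul_one, one_mul] at m2 m3
    refine mul_mem (uB_mem hq (fun α => ?_) ok) (map_pow (hB (σ := σ)) ζ k ▸ pow_mem m3 k)
    by_cases h0 : α = 0
    · exact ⟨0, by simp [h0, Ok3], by rw [h0, uB_zero]; exact one_mem _⟩
    obtain ⟨k, hk⟩ := hζ (Units.mk0 α h0)
    obtain rfl : (ζ : F) ^ (k % 3) = α := by rw [← pow_eq_pow_mod _ z3]; simpa using congrArg Units.val hk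
    have : k % 3 < 3 := by omega
    interval_cases k % 3
    exacts [⟨_, by simpa using o1, by simpa using m2⟩, ⟨_, by simpa using o2, by simpa using m1⟩,
      ⟨_, z2 ▸ o2.add o1, z2 ▸ uB_mul o2 o1 ▸ mul_mem m1 m2⟩]
  simp only [List.forall_mem_cons, map_mul, map_pow, map_inv, FreeGroup.lift_apply_of, mul_inv_eq_one] at hr
  obtain ⟨r1, r2, r3, -⟩ := hr
  refine (injective_iff_map_eq_one _).2 fun g hg => ?_
  rcases mem_or_mem' (N := zpowers (x 0)) (y := x 1) (r2 ▸ pow_mem (mem_zpowers _) 6) (by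
    rintro _ ⟨k, rfl⟩; exact conj_zpow (a := x 1) ▸ r3 ▸ zpow_mem (pow_mem (mem_zpowers _) 7) k) hx (by
    rw [range_two]; rintro _ (rfl | rfl); exacts [.inl (mem_zpowers _), .inr (r2 ▸ pow_mem (mem_zpowers _) 6)]) g
    with ⟨k, rfl⟩ | ⟨k, e⟩
  · rw [map_zpow, h1, ← orderOf_dvd_iff_zpow_eq_one] at hg
    obtain ⟨m, rfl⟩ := (show ((12 : ℕ) : ℤ) ∣ k from ord ▸ hg)
    simp only [_root_.zpow_mul, zpow_natCast, r1, _root_.one_zpow]
  have := congrArg π e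
  simp only [map_mul, map_zpow, h1, hg, one_mul, cons_val_zero, cons_val_one] at this
  rw [← this, ((Commute.refl _).zpow_left k).mul_inv_cancel, pow_succ _ 6, right_eq_mul] at e7
  exact (a6 e7).elim

end

variable [Fintype F] [hF : Fact (Fintype.card F = q ^ 2)]

theorem pres_SU3' : ∃ D : Fin 3 → SU 3 F q, HasPres D (if q = 2 then 9 else 21) := by
  split_ifs with h2
  · obtain ⟨ζ, hζ⟩ := exists_prim_unit (F := F)
    obtain ⟨D, h⟩ := pres_B3_two (σ := Geom.frobq hF.out) (fun _ => rfl) hζ h2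
    obtain ⟨D, h⟩ := pres_UG3_of (fun _ => rfl) hζ h
    obtain ⟨-, φ, -⟩ := exists_equiv_UG (F := F) (q := q) 3
    exact (h.congr φ).exists_fin (by simp)
  exact pres_SU3 h2

theorem two_gen_SU2 : ∃ a b : SU 2 F q, closure {a, b} = ⊤ := by
  let K := (Geom.frobq hF.out).eqLocusField (RingHom.id F)
  haveI := Fintype.ofFinite K
  obtain ⟨e⟩ := S0281.result (K := K) hF.out (by rw [← Nat.card_eq_fintype_card]; exact card_fixed F q)
  obtain ⟨a, b, h⟩ := exists_two_gen_SL (F := K) (n := 2) le_rfl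
  refine ⟨e.symm a, e.symm b, ?_⟩
  have := congrArg (Subgroup.map e.symm.toMonoidHom) h
  rwa [MonoidHom.map_closure, Set.image_pair, map_top_of_surjective _ e.symm.surjective] at this

theorem pres_SUn_alt {γ : Type} {E : γ → alternatingGroup (Fin (n + 4))} {l : ℕ} (h : HasPres E l) :
    ∃ D : Fin 3 ⊕ γ → SU (n + 4) F q, HasPres D (l + 31) := by
  obtain ⟨D, h1⟩ := pres_SU3' (F := F) (q := q)
  obtain ⟨ι, hι, hr⟩ := exists_emb (F := F) (q := q) (show 3 ≤ n + 4 by omega)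
  obtain ⟨ι', -, hr'⟩ := exists_emb (F := F) (q := q) (show 2 ≤ n + 4 by omega)
  obtain ⟨a, b, hab⟩ := two_gen_SU2 (F := F) (q := q)
  obtain ⟨a', ha⟩ := hr.ge (Fx_mono (by omega) (hr'.le ⟨a, rfl⟩))
  obtain ⟨b', hb⟩ := hr.ge (Fx_mono (by omega) (hr'.le ⟨b, rfl⟩))
  refine ⟨_, (pres_SUn_of hr h1 h hι (a1 := a') (a2 := b') (g1 := D 0) (g2 := D 1) (g3 := D 2) ?_ fun _ => ?_).mono
    (by split_ifs <;> omega)⟩
  · rw [← hr', MonoidHom.range_eq_map, ← hab, MonoidHom.map_closure, Set.image_pair, ← ha, ← hb, ← Set.image_pair,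
      ← MonoidHom.map_closure, comap_map_eq_self_of_injective hι]
  rw [← h1.closure_eq]; congr 1; ext; simp [Fin.exists_fin_succ, eq_comm]

omit hF [Fintype F] in
theorem pres_tri {G : Type} [Group G] [Finite G] {m : ℕ} {a b : G} (h : Classical.Tri m a b) (hg : closure {a, b} = ⊤)
    (hc : ∀ (J : Type) [Group J] (x y : J), Classical.Tri m x y → closure {x, y} = ⊤ → Finite J ∧ Nat.card J ≤ Nat.card G) :
    HasPres ![a, b] 3 := by
  refine hasPres_of_inj _ [.of 0 ^ 3, .of 1 ^ m, (.of 0 * .of 1) ^ 2] (by simpa [Classical.Tri] using h) (by rwa [range_two])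
    fun J _ x π hx h1 hr => ?_
  obtain ⟨_, e⟩ := hc J (x 0) (x 1) (by simpa [Classical.Tri] using hr) (by rwa [← range_two])
  have hs : Function.Surjective π := by
    rw [← MonoidHom.range_eq_top, eq_top_iff, ← hg, closure_le]
    rintro _ (rfl | rfl)
    exacts [⟨_, h1 0⟩, ⟨_, h1 1⟩]
  exact ((Nat.bijective_iff_surjective_and_card π).2 ⟨hs, e.antisymm (Nat.card_le_card_of_surjective π hs)⟩).1

theorem pres_SUn (hn : 4 ≤ n) : ∃ D : Fin 6 → SU n F q, HasPres D (if n ≤ 5 then 35 else 38) := by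
  obtain ⟨n, rfl⟩ := Nat.exists_eq_add_of_le' hn
  rcases n with _ | _ | n
  · obtain ⟨D, h⟩ := pres_SUn_alt (F := F) (q := q) (n := 0) (pres_tri tri_a4 closure_a4 fun J _ x y a b =>
      card_alt4 ▸ a.card_le_three b)
    obtain ⟨D, h⟩ := h.exists_fin (m := 5) (by simp)
    exact h.exists_add (by simp) 1
  · obtain ⟨D, h⟩ := pres_SUn_alt (F := F) (q := q) (n := 1) (pres_tri tri_a5 closure_a5 fun J _ x y a b =>
      card_alt5 ▸ Perm.card_le_sixty a.1 a.2.1 a.2.2 b)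
    obtain ⟨D, h⟩ := h.exists_fin (m := 5) (by simp)
    exact h.exists_add (by simp) 1
  obtain ⟨E, h⟩ := (pres_alt (n := n + 1 + 1 + 4) (by omega)).1
  obtain ⟨D, h⟩ := pres_SUn_alt (F := F) (q := q) h
  rw [if_neg (by omega)]
  exact h.exists_fin (by simp)

end Cfsg.Agent.Pres
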