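import Cfsg.Agent.Pres.SpA1

/-! The symplectic group as the completion of an amalgam: the induction step (`SpD.step`). -/

set_option autoImplicit false

namespace Cfsg.Agent.Pres

open Subgroup _root_.Cfsg.Agent.Classical Matrix
open scoped LinearAlgebra.Projectivization

theorem CovG.gen {G X : Type*} [Group G] [MulAction G X] {Γ H : Subgroup G} {adj : X → X → Prop} {x0 : X} {t : G}
    (K : CovG Γ adj x0 t) (h1 : ∀ g ∈ Γ, g • x0 = x0 → g ∈ H) (ht : t ∈ H)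
    (h : ∀ g ∈ Γ, ∃ p, adj x0 p ∧ adj p (g • x0)) : Γ ≤ H := fun g hg => by
  have k : ∀ g ∈ Γ, adj x0 (g • x0) → g ∈ H := fun g hg a => by
    obtain ⟨k, hk, e, e'⟩ := K.tr _ a
    simpa [mul_assoc] using mul_mem (mul_mem (h1 k hk e) ht) (h1 _ (mul_mem (inv_mem (mul_mem hk K.tm)) hg) (by
      rw [mul_smul, ← e', ← mul_smul k, inv_smul_smul]))
  obtain ⟨p, a, b⟩ := h g hg
  obtain ⟨l, hl, e, rfl⟩ := K.tr _ a
  have m := inv_mem (mul_mem hl K.tm)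
  simpa [mul_assoc] using mul_mem (mul_mem (h1 l hl e) ht) (k _ (mul_mem m hg) (by
    simpa [mul_smul] using K.inv _ m b))

variable {F : Type*} [Field F] {m : ℕ}

local notation "ω" => sympForm _ _
local notation "mk" => Projectivization.mk F

variable {W : Submodule F (SV m F)} {g : SG m F} {u v w e0 f0 e1 f1 : SV m F}

/-- Non-perpendicular points. -/
def SAj (W : Submodule F (SV m F)) (p q : ℙ F (SV m F)) : Prop := p.rep ∈ W ∧ q.rep ∈ W ∧ ω p.rep q.rep ≠ 0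

theorem saj_mk {hu : u ≠ 0} {hv : v ≠ 0} : SAj W (mk u hu) (mk v hv) ↔ u ∈ W ∧ v ∈ W ∧ ω u v ≠ 0 := by
  obtain ⟨a, ha⟩ := Projectivization.exists_smul_eq_mk_rep F u hu
  obtain ⟨b, hb⟩ := Projectivization.exists_smul_eq_mk_rep F v hv
  simp [SAj, ← ha, ← hb, Units.smul_def, W.smul_mem_iff]

theorem sw1 (h : ω u v ≠ 0) : ω v u ≠ 0 := fun e => h (sw0 e)

theorem ne1 (h : ω u v ≠ 0) : v ≠ 0 := fun e => h (by simp [e])

theorem smul_mk_iff {hu : u ≠ 0} {hv : v ≠ 0} : g • mk u hu = mk v hv ↔ ∃ c : F, g • u = c • v := by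
  rw [Projectivization.smul_mk, Projectivization.mk_eq_mk_iff']; simp only [eq_comm]

variable {J : Type*} [Group J] {S0 S1 B M : Subgroup (SG m F × J)} {a b s z : SG m F × J}
  {y : SV m F → SG m F × J}

/-- The lift of the stabilizer of a point. -/
structure Par (W : Submodule F (SV m F)) (e0 f0 : SV m F) (S0 B M P : Subgroup (SG m F × J)) : Prop where
  p1 : P ≤ S0 ⊔ (M ⊔ B)
  p2 : B ≤ P
  p3 : M ≤ P
  p4 : ∀ s ∈ S0, (∃ c : F, s.1 • e0 = c • e0) → s ∈ P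
  p5 : ∀ x ∈ P, ∃ c : F, x.1 • e0 = c • e0
  p6 : ∀ x ∈ P, x.1 • e0 = e0 → x ∈ M ⊔ B
  p7 : ∀ x ∈ P, x.1 • f0 ∈ pl e0 f0 → ∃ s ∈ S0, ∃ b ∈ B, x = s * b
  p8 : ∀ w ∈ W, ω w e0 = 1 → ∃ x ∈ P, x.1 • e0 = e0 ∧ x.1 • f0 = w

namespace SpD

variable (D : SpD W e0 f0 e1 f1 S0 S1 B M)
include D

theorem tor {c : F} (hc : c ≠ 0) : ∃ t ∈ S0, t.1 • e0 = c • e0 := by
  have : e0 ≠ 0 := ne1 (u := f0) (by simp [D.h0])
  obtain ⟨g, hg, e⟩ := (nd_pl D.h0).exists_smul_eq pl_left (Submodule.smul_mem _ c pl_left) this (smul_ne_zero hc this)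
  obtain ⟨t, ht, rfl⟩ := D.o0.st g (spTG_le hg)
  exact ⟨t, ht, e⟩

theorem par : ∃ P, Par W e0 f0 S0 B M P := by
  obtain ⟨y, Y⟩ := D.hei
  let p := fun x => ∃ v ∈ p2 W e0 f0, ∃ s ∈ S0, ∃ b ∈ B, (∃ c : F, s.1 • e0 = c • e0) ∧ x = y v * s * b
  have p1 : ∀ v ∈ p2 W e0 f0, p (y v) := fun v hv => ⟨v, hv, 1, one_mem _, 1, one_mem _, ⟨1, by simp⟩, by simp⟩
  have p2' : ∀ s ∈ S0, (∃ c : F, s.1 • e0 = c • e0) → p s := fun s hs h =>
    ⟨0, zero_mem _, s, hs, 1, one_mem _, h, by simp [Y.zero]⟩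
  have p3 : ∀ b ∈ B, p b := fun b hb => ⟨0, zero_mem _, 1, one_mem _, b, hb, ⟨1, by simp⟩, by simp [Y.zero]⟩
  have p4 : ∀ a b, p a → p b → p (a * b) := by
    rintro _ _ ⟨v, hv, s, hs, b, hb, ⟨c, hc⟩, rfl⟩ ⟨v', hv', s', hs', b', hb', ⟨c', hc'⟩, rfl⟩
    have m := SFx.smul (D.oB.le b hb) hv'
    obtain ⟨z, hz, e, h⟩ := Y.mul v hv _ (Submodule.smul_mem _ c m)
    refine ⟨_, add_mem hv (Submodule.smul_mem _ c m), z * s * s', mul_mem (mul_mem hz hs) hs', b * b', mul_mem hb hb',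
      ⟨c' * c, by simp only [Prod.fst_mul, mul_smul, hc', sp_smul_smul, hc, e]⟩, ?_⟩
    rw [← mul_assoc, ← mul_assoc, ← mul_assoc, ← mul_assoc, ← mul_assoc, ← h, ← Y.tor s hs c hc _ m, ← Y.conj b hb _ hv',
      mul_assoc _ s' b, (D.c0 s' hs' b hb).eq]; group
  have p5 : ∀ s : SG m F × J, (∃ c : F, s.1 • e0 = c • e0) → ∃ c : F, s⁻¹.1 • e0 = c • e0 := fun s ⟨c, hc⟩ =>
    ⟨c⁻¹, by
      have : c ≠ 0 := fun e => by simpa [e, (smul_eq_zero_iff_eq _).1 (hc.trans (by simp [e]))] using D.h0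
      rw [Prod.fst_inv, inv_smul_eq_iff, sp_smul_smul, hc, inv_smul_smul₀ this]⟩
  let P : Subgroup (SG m F × J) := ⟨⟨⟨{x | p x}, p4 _ _⟩, p3 1 (one_mem _)⟩, by
    rintro _ ⟨v, hv, s, hs, b, hb, h, rfl⟩
    obtain ⟨z, hz, e, h'⟩ := Y.mul v hv _ (neg_mem hv)
    rw [add_neg_cancel, Y.zero, one_mul] at h'
    simpa [← h', mul_assoc] using p4 _ _ (p4 _ _ (p4 _ _ (p3 _ (inv_mem hb)) (p2' _ (inv_mem hs) (p5 s h)))
      (p1 _ (neg_mem hv))) (p2' _ (inv_mem hz) (p5 z ⟨1, by simp [e]⟩))⟩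
  have q : ∀ (a : F), ∀ v ∈ p2 W e0 f0, ∃ z ∈ S0, z.1 • e0 = e0 ∧ (y v * z).1 • e0 = e0 ∧
      (y v * z).1 • f0 = f0 + a • e0 + v := fun a v hv => by
    obtain ⟨z, hz, e⟩ := D.o0.st _ (spT_mem pl_left a)
    have o := sw0 hv.2.1
    refine ⟨z, hz, ?_, ?_, ?_⟩ <;> simp [e, Y.fst v hv, mul_smul, spT_smul, spE_smul, o, D.h0, sw0 hv.2.2, add_right_comm]
  refine ⟨P, ?_, p3, fun a ha => ?_, p2', ?_, ?_, ?_, fun w hw h => ?_⟩
  · rintro _ ⟨v, hv, s, hs, b, hb, -, rfl⟩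
    exact mul_mem (mul_mem (mem_sup_right (Y.mem v hv)) (mem_sup_left hs)) (mem_sup_right (mem_sup_right hb))
  · obtain ⟨c, d, e⟩ := mem_pl.1 (D.oM.le a ha f0)
    obtain ⟨z, hz, e1, e2, e3⟩ := q c _ (Submodule.smul_mem _ d D.me1)
    have m := mul_mem (inv_mem (mul_mem (Y.mem1 d) (D.memM hz e1))) ha
    have := D.le (D.i1.mem le_sup_right D.o1 (mem_sup_left m) (SFx.of_fix (x := f0) (D.oM.le _ m) (by
      rw [Prod.fst_mul, mul_smul, Prod.fst_inv, inv_smul_eq_iff, e3, add_assoc, e, add_sub_cancel]) fun v hv h => by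
        obtain ⟨a, b, rfl⟩ := mem_pl.1 hv
        simpa [show a = 0 by simpa [D.h0, D.me1.2.2, sympForm_swap e0] using h] using Submodule.smul_mem _ b pl_left))
    exact mul_inv_cancel_left (y _ * z) a ▸ p4 _ _ (p4 _ _ (p1 _ (Submodule.smul_mem _ d D.me1))
      (p2' z hz ⟨1, by simp [e1]⟩)) (p3 _ this)
  · rintro _ ⟨v, hv, s, hs, b, hb, ⟨c, hc⟩, rfl⟩
    exact ⟨c, by simp [mul_smul, (D.fixB hb).1, hc, Y.fst v hv, spE_smul, sw0 hv.2.1]⟩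
  · rintro _ ⟨v, hv, s, hs, b, hb, ⟨c, hc⟩, rfl⟩ h
    refine mul_mem (mul_mem (Y.mem v hv) (mem_sup_left (D.memM hs (hc.trans ?_)))) (mem_sup_right hb)
    simpa [mul_smul, (D.fixB hb).1, hc, Y.fst v hv, spE_smul, sw0 hv.2.1] using h
  · rintro _ ⟨v, hv, s, hs, b, hb, ⟨c, hc⟩, rfl⟩ h
    have m := SFx.smul (D.o0.le s hs) pl_right
    have o : ω (s.1 • f0) e0 ≠ 0 := fun e => by simpa [hc, e, D.h0] using sympForm_smul_smul s.1 f0 e0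
    simp only [Prod.fst_mul, mul_smul, (D.fixB hb).2, Y.fst v hv, spE_smul (sw0 hv.2.1), one_mul] at h
    rw [add_mem_cancel_left (add_mem m (Submodule.smul_mem _ _ pl_left)), Submodule.smul_mem_iff _ o] at h
    exact ⟨s, hs, b, hb, by simp [pl_p2 D.h0 h hv, Y.zero]⟩
  obtain ⟨z, hz, e1, e2, e3⟩ := q (-ω w f0) _ (proj2 D.me D.mf D.h0 hw)
  exact ⟨_, p4 _ _ (p1 _ (proj2 D.me D.mf D.h0 hw)) (p2' z hz ⟨1, by simp [e1]⟩), e2, by rw [e3, h]; module⟩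

theorem h0' : ω e0 f0 = -1 := by rw [sympForm_swap, D.h0]

theorem sle : ∀ s ∈ S0 ⊔ (M ⊔ B), s.1 ∈ SFx W := fun s hs => by
  have : S0 ⊔ (M ⊔ B) ≤ (SFx W).comap (.fst ..) := sup_le (fun s hs => SFx.mono (D.o0.le s hs) (pl_le D.me D.mf))
    (sup_le (fun s hs => SFx.mono (D.oM.le s hs) (pl_le D.me D.me1.1)) fun s hs =>
      SFx.mono (D.oB.le s hs) fun _ h => h.1)
  exact this hs

variable {P : Subgroup (SG m F × J)} (R : Par W e0 f0 S0 B M P) {τ : SG m F × J} (hτ : τ ∈ S0) (t0 : τ.1 • e0 = f0)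
  (t1 : τ.1 • f0 = -e0)
include R hτ t0 t1

theorem tri (a c : F) (o : a ≠ 0) : ∃ n ∈ M, n.1 • f0 = f0 - a • e0 + c • e1 ∧ RR P τ τ (n * τ) := by
  have t2 : τ⁻¹.1 • f0 = e0 := inv_smul_eq_iff.2 t0.symm
  have t3 : τ⁻¹.1 • e0 = -f0 := by rw [Prod.fst_inv, inv_smul_eq_iff, smul_neg, t1, neg_neg]
  have k : ∀ a c : F, ∃ n ∈ M, n.1 • f0 = f0 + a • e0 + c • e1 := fun a c => by
    obtain ⟨n, hn, e⟩ := D.oM.st _ (mul_mem (spE_mem pl_left pl_right c) (spT_mem pl_left a))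
    exact ⟨n, hn, by simp [e, mul_smul, spT_smul, spE_smul, sw0 D.me1.2.1, D.h0, sw0 D.me1.2.2, add_right_comm]⟩
  obtain ⟨n, hn, en⟩ := k (-a) c
  obtain ⟨n', hn', en'⟩ := k a⁻¹ (a⁻¹ * c)
  obtain ⟨t, ht, et⟩ := D.tor o
  have mK : (n' * τ * t)⁻¹ * (τ⁻¹ * n * τ) ∈ M ⊔ S0 := mul_mem (inv_mem (mul_mem (mul_mem (mem_sup_left hn')
    (mem_sup_right hτ)) (mem_sup_right ht))) (mul_mem (mul_mem (inv_mem (mem_sup_right hτ)) (mem_sup_left hn))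
    (mem_sup_right hτ))
  have l : M ⊔ S0 ≤ (SFx (pl e0 e1 ⊔ F ∙ f0)).comap (.fst ..) := sup_le
    (fun s hs => SFx.mono (D.oM.le s hs) le_sup_left) fun s hs => SFx.mono (D.o0.le s hs) (pl_le
      (Submodule.mem_sup_left pl_left) (Submodule.mem_sup_right (Submodule.mem_span_singleton_self _)))
  have := D.i0.mem le_sup_left D.oM mK (SFx.of_fix (x := e0) (l mK) (by
    rw [Prod.fst_mul, mul_smul, Prod.fst_inv, inv_smul_eq_iff]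
    simp only [Prod.fst_mul, mul_smul, t0, en, smul_add τ⁻¹.1, sp_smul_smul, t2, t3, D.fix0 (inv_mem hτ) D.me1, et, en']
    match_scalars <;> field_simp) fun v hv h => by
      obtain ⟨u, hu, _, hw, rfl⟩ := Submodule.mem_sup.1 hv
      obtain ⟨c, rfl⟩ := Submodule.mem_span_singleton.1 hw
      simpa [show c = 0 by simpa [D.h0, pl_o (by simp) D.me1.2.1 u hu] using h] using hu)
  exact ⟨n, hn, by rw [en]; module, n', R.p3 hn', _, mul_mem (R.p4 t ht ⟨a, et⟩) (R.p3 this), by group⟩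

theorem cov (n0 : e0 ≠ 0) : CovS (SFx W) (SAj W) (mk e0 n0) P τ := by
  have h0 := D.h0
  have n1 : f0 ≠ 0 := ne1 (u := e0) (by simp [D.h0'])
  have le := fun s hs => D.sle s (R.p1 hs)
  have tx : τ.1 • mk e0 n0 = mk f0 n1 := smul_mk_iff.2 ⟨1, by simp [t0]⟩
  have tr : ∀ p, SAj W (mk e0 n0) p → ∃ x ∈ P, x.1 • e0 = e0 ∧ x.1 • mk f0 n1 = p := fun p h => by
    induction p using Projectivization.ind with
    | h u hu =>
      obtain ⟨-, a, b⟩ := saj_mk.1 h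
      obtain ⟨x, hx, e, e'⟩ := R.p8 _ (W.smul_mem (ω u e0)⁻¹ a) (by simp [sw1 b])
      exact ⟨x, hx, e, smul_mk_iff.2 ⟨_, e'⟩⟩
  refine ⟨⟨fun h => ⟨h.2.1, h.1, sw1 h.2.2⟩, fun h => h.2.2 (by simp), fun g hg p q h => ?_, D.sle τ (mem_sup_left hτ),
    tx ▸ saj_mk.2 ⟨D.me, D.mf, by simp [D.h0']⟩, fun p h => ?_⟩, fun s hs => ⟨le s hs, smul_mk_iff.2 (R.p5 s hs)⟩,
    fun g hg h => ?_, R.p4 _ (mul_mem hτ hτ) ⟨-1, by simp [mul_smul, t0, t1]⟩, fun x hx h => ?_, fun p q h1 h2 h3 => ?_⟩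
  · induction p using Projectivization.ind
    induction q using Projectivization.ind
    obtain ⟨a, b, c⟩ := saj_mk.1 h
    rw [Projectivization.smul_mk, Projectivization.smul_mk]
    exact saj_mk.2 ⟨SFx.smul hg a, SFx.smul hg b, by simpa using c⟩
  · obtain ⟨x, hx, e, e'⟩ := tr p h
    exact ⟨_, le x hx, smul_mk_iff.2 ⟨1, by simp [e]⟩, by rw [tx, e']⟩
  · obtain ⟨c, hc⟩ := smul_mk_iff.1 h
    obtain ⟨t, ht, e⟩ := D.tor (c := c) fun e => n0 ((smul_eq_zero_iff_eq _).1 (hc.trans (by simp [e])))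
    have m := mul_mem (inv_mem (D.sle t (mem_sup_left ht))) hg
    have e' : (t.1⁻¹ * g) • e0 = e0 := by rw [mul_smul, hc, inv_smul_eq_iff, e]
    obtain ⟨x, hx, a, b⟩ := R.p8 _ (SFx.smul m D.mf) (by rw [← h0, ← sympForm_smul_smul (t.1⁻¹ * g) f0, e'])
    obtain ⟨k, hk, e''⟩ := D.oB.st _ (SFx.down (mul_mem (inv_mem (le x hx)) m)
      (by rw [mul_smul, e', inv_smul_eq_iff, a]) (by rw [mul_smul, inv_smul_eq_iff, b]))
    exact ⟨t * x * k, mul_mem (mul_mem (R.p4 t ht ⟨c, e⟩) hx) (R.p2 hk), by simp [e'', mul_assoc]⟩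
  · rw [tx] at h
    obtain ⟨c, hc⟩ := smul_mk_iff.1 h
    obtain ⟨s, hs, b, hb, rfl⟩ := R.p7 x hx (hc ▸ Submodule.smul_mem _ c pl_right)
    rw [Prod.fst_mul, mul_smul, (D.fixB hb).2] at hc
    rw [mul_assoc, mul_assoc, ← (D.c0 τ hτ b hb).eq, ← mul_assoc, ← mul_assoc]
    exact mul_mem (R.p4 _ (mul_mem (mul_mem (inv_mem hτ) hs) hτ) ⟨c, by
      simp [mul_smul, t0, hc, sp_smul_smul, inv_smul_eq_iff.2 t0.symm]⟩) (R.p2 hb)
  obtain ⟨x, hx, e, rfl⟩ := tr p h1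
  obtain ⟨x', hx', e', rfl⟩ := tr q h2
  obtain ⟨w, hw⟩ : ∃ w, x'.1 • f0 = x.1 • w := ⟨x.1⁻¹ • x'.1 • f0, by simp⟩
  have m : w ∈ W := by simpa [hw] using SFx.smul (inv_mem (le x hx)) (SFx.smul (le x' hx') D.mf)
  have o : ω w e0 = 1 := by rw [← sympForm_smul_smul x.1, ← hw, e, ← h0, ← sympForm_smul_smul x'.1 f0, e']
  have o' : ω w f0 ≠ 0 := by
    rw [Projectivization.smul_mk, Projectivization.smul_mk] at h3
    rw [← sympForm_smul_smul x.1, ← hw]; exact sw1 (saj_mk.1 h3).2.2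
  obtain ⟨b, hb, c, hc⟩ : ∃ b ∈ B, ∃ c : F, b.1 • c • e1 = w - ω w e0 • f0 + ω w f0 • e0 := by
    have := proj2 D.me D.mf h0 m
    generalize w - ω w e0 • f0 + ω w f0 • e0 = v at this ⊢
    by_cases h : v = 0
    · exact ⟨1, one_mem _, 0, by simp [h]⟩
    obtain ⟨b, hb, e⟩ := D.tr this h
    exact ⟨b, hb, 1, by simp [e]⟩
  obtain ⟨n, hn, en, r⟩ := D.tri R hτ t0 t1 _ c o'
  refine ⟨x * b * τ, x * b * (n * τ), ?_, ?_, ⟨_, mul_mem hx (R.p2 hb), 1, one_mem _, by simp⟩,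
    ⟨_, mul_mem (mul_mem hx (R.p2 hb)) (R.p3 hn), 1, one_mem _, by simp [mul_assoc]⟩, r.left _⟩
  · simp only [Prod.fst_mul, mul_smul, tx]
    exact congrArg _ (smul_mk_iff.2 ⟨1, by simp [(D.fixB hb).2]⟩)
  simp only [Prod.fst_mul, mul_smul, tx, Projectivization.smul_mk, en, smul_add b.1, smul_sub b.1, hc, D.fixB hb, o,
    sp_smul_smul b.1 _ e0, hw]
  congr 2; module

omit R hτ t0 t1 in
theorem th (p q r : ℙ F (SV m F)) (a : p.rep ∈ W) (b : q.rep ∈ W) (c : r.rep ∈ W) :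
    ∃ x, SAj W x p ∧ SAj W x q ∧ SAj W x r := by
  obtain ⟨x, hx, d, e, f⟩ := exists_three D.hF D.nd a b c p.rep_nonzero q.rep_nonzero r.rep_nonzero
  have := ne1 d
  exact ⟨mk x this, p.mk_rep ▸ saj_mk.2 ⟨hx, a, sw1 d⟩, q.mk_rep ▸ saj_mk.2 ⟨hx, b, sw1 e⟩,
    r.mk_rep ▸ saj_mk.2 ⟨hx, c, sw1 f⟩⟩

omit R hτ t0 t1 in
theorem cv {x : ℙ F (SV m F)} (C : CovS (SFx W) (SAj W) x P τ) (ha : a ∈ P ⊔ zpowers τ) (e : a.1 • x = x) : a ∈ P := by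
  refine C.cover (fun u y v h1 h2 h3 h4 => ?_) (fun y z h => .inr (.inl (D.th _ _ _ C.t0.1 h.1 h.2.1))) ha e
  by_cases h : SAj W x y
  · obtain ⟨g, hg, -, e⟩ := C.tr v (C.symm h4)
    exact C.rot (C.of_adj (mul_mem hg C.tm) ((mul_smul ..).trans e) h4 h1 h2 h3 h)
  have o : ω x.rep y.rep = 0 := not_not.1 fun e => h ⟨h1.1, h2.2.1, e⟩
  obtain ⟨t, t0, ht⟩ := exists_ne3 D.hF (sw1 h4.2.2) (ω u.rep v.rep)
  have k : ∀ q : ℙ F (SV m F), q.rep ∈ W → ω (x.rep + t • u.rep) q.rep ≠ 0 →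
      SAj W (mk (x.rep + t • u.rep) (ne1 (u := u.rep) (by simpa using sw1 h1.2.2))) q := fun q a b => by
    rw [← q.mk_rep]; exact saj_mk.2 ⟨add_mem h1.1 (W.smul_mem _ h2.1), a, b⟩
  have k0 := k _ h1.1 (by simpa [t0] using sw1 h1.2.2)
  have k2 := k _ h2.2.1 (by simpa [t0, o] using h2.2.2)
  exact C.trans (C.of_adj (one_mem _) (one_smul ..) h1 h2 (C.symm k2) k0 (C.symm (k _ h2.1 (by simpa using h1.2.2))))
    (C.of_adj (one_mem _) (one_smul ..) (C.symm k0) k2 h3 h4 (k _ h4.1 (by simpa using ht)))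

omit R hτ t0 t1 in
theorem step : SOv W (S0 ⊔ (M ⊔ B)) ∧ Gr (S0 ⊔ (M ⊔ B)) ∧ ∀ s ∈ S0 ⊔ (M ⊔ B), s.1 • e0 = e0 → s ∈ M ⊔ B := by
  obtain ⟨P, R⟩ := D.par
  have h0 := D.h0
  have n0 : e0 ≠ 0 := ne1 (u := f0) (by simp [h0])
  obtain ⟨t, ht, t1, t0⟩ := (nd_pl h0).exists_smul_pair_eq pl_right pl_left (neg_mem pl_left) pl_right h0
    (by simp [D.h0'])
  obtain ⟨τ, hτ, rfl⟩ := D.o0.st t (spTG_le ht)
  have C := D.cov R hτ t0 t1 n0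
  have l : S0 ⊔ (M ⊔ B) ≤ P ⊔ zpowers τ := sup_le (fun s hs => by
    obtain ⟨a, b, e⟩ := mem_pl.1 (SFx.smul (D.o0.le s hs) pl_left)
    by_cases h : b = 0
    · exact mem_sup_left (R.p4 s hs ⟨a, by simp [← e, h]⟩)
    obtain ⟨z, hz, e'⟩ := D.o0.st _ (spT_mem pl_left (a / b))
    exact mul_inv_cancel_left (z * τ) s ▸ mul_mem (mul_mem (mem_sup_left (R.p4 z hz ⟨1, by simp [e', spT_smul]⟩))
      (mem_sup_right (mem_zpowers τ))) (mem_sup_left (R.p4 _ (mul_mem (inv_mem (mul_mem hz hτ)) hs) ⟨b, by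
        rw [Prod.fst_mul, mul_smul, Prod.fst_inv, inv_smul_eq_iff, ← e, Prod.fst_mul, mul_smul, sp_smul_smul, t0, e',
          spT_smul]
        simp only [sympForm_smul_left, h0]
        match_scalars <;> field_simp⟩))) ((sup_le R.p3 R.p2).trans le_sup_left)
  refine ⟨⟨D.sle, fun g hg => mem_map.1 (C.gen (H := (S0 ⊔ (M ⊔ B)).map (MonoidHom.fst (SG m F) J))
    (fun g hg e => ?_) ⟨τ, mem_sup_left hτ, rfl⟩ (fun g hg => ?_) hg)⟩, fun x hx e => ?_, fun s hs e => R.p6 s (D.cv C (l hs) (smul_mk_iff.2 ⟨1, by simp [e]⟩)) e⟩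
  · obtain ⟨s, hs, e⟩ := C.st g hg e
    exact ⟨s, R.p1 hs, e⟩
  · obtain ⟨p, a, -, b⟩ := D.th _ _ _ C.t0.1 C.t0.1 (C.inv g hg C.t0).1
    exact ⟨p, C.symm a, b⟩
  obtain ⟨s, hs, b, hb, rfl⟩ := R.p7 x (D.cv C (l hx) (by simp [e])) (by simpa [e] using pl_right)
  have : s.1 = 1 := sp_ext fun v => by
    rw [one_smul, ← sub_eq_zero]
    exact pl_p2 h0 (D.o0.le s hs v) (by
      rw [show s.1 = b⁻¹.1 from eq_inv_of_mul_eq_one_left e]; exact D.oB.le _ (inv_mem hb) v)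
  rw [D.i0 s (mem_sup_right hs) this, one_mul] at e ⊢
  exact D.iB b hb e

end SpD

end Cfsg.Agent.Pres
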