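import Cfsg.Agent.Pres.SpA2

/-! The symplectic group as the completion of an amalgam (`sp_amal`). -/

set_option autoImplicit false

namespace Cfsg.Agent.Pres

open Subgroup _root_.Cfsg.Agent.Classical Matrix Sum

variable {F : Type*} [Field F] {n : ℕ} {J : Type*} [Group J]

local notation "ω" => sympForm _ _
local notation "𝐞" k:max => (Pi.single (Sum.inl k) 1 : SV _ F)
local notation "𝐟" k:max => (Pi.single (Sum.inr k) 1 : SV _ F)

theorem mem_pl_single {a b : Fin n ⊕ Fin n} (h : a ≠ b) {x : SV n F} :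
    x ∈ pl (Pi.single a 1) (Pi.single b 1) ↔ ∀ c, c ≠ a → c ≠ b → x c = 0 := by
  refine ⟨fun hx c h1 h2 => ?_, fun hx => mem_pl.2 ⟨x a, x b, funext fun c => ?_⟩⟩
  · obtain ⟨s, t, rfl⟩ := mem_pl.1 hx; simp [h1, h2]
  by_cases h1 : c = a
  · simp [h1, h]
  by_cases h2 : c = b
  · simp [h2, h.symm]
  simp [h1, h2, hx c]

theorem fix_coord {g : SG n F} {k : Fin n} (v : SV n F) :
    (g • 𝐞 k = 𝐞 k → (g • v - v) (inr k) = 0) ∧ (g • 𝐟 k = 𝐟 k → (g • v - v) (inl k) = 0) :=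
  ⟨fun h => by rw [← sympForm_single_inl (g • v - v), sympForm_sub_left, ← sympForm_smul_smul g v, h, sub_self], fun h => by
    rw [← neg_eq_zero, ← sympForm_single_inr, sympForm_sub_left, ← sympForm_smul_smul g v, h, sub_self]⟩

theorem Gr.comm {A A' : Subgroup (SG n F × J)} {u v u' v' : SV n F} (h : Gr (A ⊔ A')) (o : SOv (pl u v) A)
    (o' : SOv (pl u' v') A') (k : ω u u' = 0 ∧ ω u v' = 0 ∧ ω v u' = 0 ∧ ω v v' = 0) : ∀ a ∈ A, A' ≤ centralizer {a} :=
  fun a ha b hb => mem_centralizer_singleton_iff.2 (h.eq (mul_mem (mem_sup_right hb) (mem_sup_left ha))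
    (mul_mem (mem_sup_left ha) (mem_sup_right hb)) (SFx.comm (o.le a ha) (o'.le b hb) fun x hx w hw =>
      pl_o (sw0 (pl_o (sw0 k.1) (sw0 k.2.1) w hw)) (sw0 (pl_o (sw0 k.2.2.1) (sw0 k.2.2.2) w hw)) x hx).symm)

theorem sp_amal (hF : ∃ a : F, a ≠ 0 ∧ a ≠ 1) (S M : Fin (n + 1) → Subgroup (SG (n + 1) F × J))
    (oS : ∀ k, SOv (pl (𝐞 k) (𝐟 k)) (S k)) (oM : ∀ i j : Fin (n + 1), i.val + 1 = j → SOv (pl (𝐞 i) (𝐞 j)) (M i))
    (gS : ∀ k, Gr (S k)) (gSS : ∀ j l, j ≠ l → Gr (S j ⊔ S l))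
    (gMM : ∀ i i' : Fin (n + 1), i ≠ i' → i.val < n → i'.val < n → Gr (M i ⊔ M i'))
    (gMS : ∀ i j : Fin (n + 1), i.val < n → Gr (M i ⊔ S j)) :
    SOv ⊤ (⨆ k, S k ⊔ ⨆ (_ : k.val < n), M k) ∧ Gr (⨆ k, S k ⊔ ⨆ (_ : k.val < n), M k) := by
  let B : ℕ → Subgroup (SG (n + 1) F × J) := fun a => ⨆ (k : Fin (n + 1)) (_ : a ≤ k), S k ⊔ ⨆ (_ : k.val < n), M k
  let W : ℕ → Submodule F (SV (n + 1) F) := fun a => spCoord F (Finset.univ.filter fun k => a ≤ k.val)
  have hW : ∀ {a : ℕ} {k : Fin (n + 1)}, a ≤ k → 𝐞 k ∈ W a ∧ 𝐟 k ∈ W a := fun h =>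
    ⟨single_inl_mem_spCoord (by simpa), single_inr_mem_spCoord (by simpa)⟩
  have hB : ∀ {a : ℕ} {k : Fin (n + 1)}, a ≤ k → S k ⊔ ⨆ (_ : k.val < n), M k ≤ B a := fun {a k} h =>
    le_iSup₂_of_le k h le_rfl
  have cB : ∀ (a : ℕ) x, (∀ k : Fin (n + 1), a ≤ k → S k ≤ centralizer {x}) →
      (∀ k : Fin (n + 1), a ≤ k → k.val < n → M k ≤ centralizer {x}) → ∀ b ∈ B a, Commute x b := fun a x h1 h2 b hb =>
    (mem_centralizer_singleton_iff.1 ((iSup₂_le fun k h => sup_le (h1 k h) (iSup_le (h2 k h)) :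
      B a ≤ centralizer {x}) hb)).symm
  have key : ∀ d, ∀ a : Fin (n + 1), a + d = n → SOv (W a) (B a) ∧ Gr (B a) ∧ ∀ s ∈ B a, s.1 • 𝐞 a = 𝐞 a →
      ∀ i : Fin (n + 1), i.val + 1 = a → ∀ x ∈ M i, Commute x s := fun d => by
    induction d with
    | zero =>
      intro a ha
      have e1 : B a = S a := le_antisymm (iSup₂_le fun k h => by
        obtain rfl : k = a := Fin.ext (by omega)
        exact sup_le le_rfl (iSup_le (by omega))) (le_sup_left.trans (hB le_rfl))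
      have e2 : W a = pl (𝐞 a) (𝐟 a) := le_antisymm (fun x hx => (mem_pl_single (by simp)).2 fun c h1 h2 => by
        rcases c with c | c
        exacts [(hx c (by simp at h1 ⊢; omega)).1, (hx c (by simp at h2 ⊢; omega)).2]) (pl_le (hW le_rfl).1 (hW le_rfl).2)
      rw [e1, e2]
      refine ⟨oS a, gS a, fun s hs e i hi x hx => (gMS i a (by omega)).eq (mul_mem (mem_sup_left hx) (mem_sup_right hs))
        (mul_mem (mem_sup_right hs) (mem_sup_left hx)) (SFx.comm ((oM i a hi).le x hx) (SFx.of_fix (U' := F ∙ 𝐞 a)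
          ((oS a).le s hs) e fun v hv h => ?_) fun u hu w hw => ?_)⟩
      · obtain ⟨c, d, rfl⟩ := mem_pl.1 hv
        simpa [show d = 0 by simpa [sympForm_single_inl] using h] using
          Submodule.smul_mem _ c (Submodule.mem_span_singleton_self _)
      obtain ⟨c, rfl⟩ := Submodule.mem_span_singleton.1 hw
      exact pl_o (by simp [sympForm_single_inl]) (by simp) u hu
    | succ d ih =>
      intro a ha
      obtain ⟨b, hb⟩ : ∃ b : Fin (n + 1), a.val + 1 = b := ⟨⟨a + 1, by omega⟩, rfl⟩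
      obtain ⟨h1, h2, h3⟩ := ih b (by omega)
      have e1 : B a = S a ⊔ (M a ⊔ B b) := le_antisymm (iSup₂_le fun k h => by
        by_cases e : k = a
        · exact e ▸ sup_le_sup_left (iSup_le fun _ => le_sup_left) _
        exact (hB (by omega)).trans (le_sup_right.trans le_sup_right)) (sup_le (le_sup_left.trans (hB le_rfl))
          (sup_le (((le_iSup (fun _ : a.val < n => M a) (by omega)).trans le_sup_right).trans (hB le_rfl))
            (iSup₂_le fun k h => hB (by omega))))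
      have e2 : W b = p2 (W a) (𝐞 a) (𝐟 a) := by
        ext x
        refine ⟨fun hx => ⟨fun c h => hx c (by simp at h ⊢; omega), ?_⟩, fun hx c h => ?_⟩
        · simp [sympForm_single_inl, sympForm_single_inr, hx a (by simp; omega)]
        by_cases e : c = a
        · simpa [sympForm_single_inl, sympForm_single_inr, e, and_comm] using hx.2
        exact hx.1 c (by simp at h ⊢; omega)
      have D : SpD (W a) (𝐞 a) (𝐟 a) (𝐞 b) (𝐟 b) (S a) (S b) (B b) (M a) := ⟨hF, spNondeg_spCoord _, (hW le_rfl).1,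
        (hW le_rfl).2, by simp [sympForm_single_inl], e2 ▸ (hW le_rfl).1, e2 ▸ (hW le_rfl).2,
        by simp [sympForm_single_inl], oS a, oS b, e2 ▸ h1, oM a b hb, le_sup_left.trans (hB le_rfl), h2,
        gMS a a (by omega), gMS a b (by omega), fun s hs => cB b s (fun k h => (gSS a k (by omega)).comm (oS a) (oS k)
          (by simp [sympForm_single_inl, sympForm_single_inr, Pi.single_apply]; omega) s hs) fun k h h' =>
          (sup_comm (M k) _ ▸ gMS k a h').comm (oS a) (oM k ⟨k + 1, by omega⟩ rfl)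
          (by simp [sympForm_single_inl, Pi.single_apply, Fin.ext_iff]; omega) s hs, fun s hs e => h3 s hs e a hb⟩
      obtain ⟨k1, k2, k3⟩ := D.step
      refine ⟨e1 ▸ k1, e1 ▸ k2, fun s hs e i hi x hx => ?_⟩
      have : M a ⊔ B b ≤ centralizer {x} := sup_le ((gMM i a (by omega) (by omega) (by omega)).comm (oM i a hi)
        (oM a b hb) (by simp [sympForm_single_inl]) x hx) fun s hs => mem_centralizer_singleton_iff.2
          (cB b x (fun k h => (gMS i k (by omega)).comm (oM i a hi) (oS k) (by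
            simp [sympForm_single_inl, sympForm_single_inr, Pi.single_apply]; omega) x hx) (fun k h h' =>
            (gMM i k (by omega) (by omega) h').comm (oM i a hi) (oM k ⟨k + 1, by omega⟩ rfl)
            (by simp [sympForm_single_inl]) x hx) s hs).symm
      exact (mem_centralizer_singleton_iff.1 (this (k3 s (e1 ▸ hs) e))).symm
  obtain ⟨h1, h2, -⟩ := key n 0 (by simp)
  have e1 : W (0 : Fin (n + 1)) = ⊤ := top_unique fun x _ c h => by simp at h
  rw [e1] at h1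
  simpa [B] using And.intro h1 h2

variable {G : Type*} [Group G] {A B : Subgroup G}

/-- The graph of a homomorphism on a subgroup. -/
def gr (α : A →* J) : Subgroup (G × J) := (A.subtype.prod α).range

theorem gr_gr (α : A →* J) : Gr (gr α) := by
  rintro _ ⟨a, rfl⟩ e
  rw [show a = 1 from Subtype.ext e, map_one]

theorem gr_sup {α : A →* J} {β : B →* J} (h : ∃ Ψ : ↥(A ⊔ B) →* J, (∀ g hg, Ψ ⟨g, mem_sup_left hg⟩ = α ⟨g, hg⟩) ∧
    ∀ g hg, Ψ ⟨g, mem_sup_right hg⟩ = β ⟨g, hg⟩) : Gr (gr α ⊔ gr β) := by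
  obtain ⟨Ψ, h1, h2⟩ := h
  have : gr α ⊔ gr β ≤ gr Ψ := sup_le (by rintro _ ⟨a, rfl⟩; exact ⟨⟨a, mem_sup_left a.2⟩, Prod.ext rfl (h1 _ a.2)⟩)
    (by rintro _ ⟨a, rfl⟩; exact ⟨⟨a, mem_sup_right a.2⟩, Prod.ext rfl (h2 _ a.2)⟩)
  exact fun x hx => gr_gr Ψ x (this hx)

theorem sov_gr {A : Subgroup (SG n F)} {U : Submodule F (SV n F)} (h : A = SFx U) (α : A →* J) : SOv U (gr α) :=
  ⟨by rintro _ ⟨a, rfl⟩; exact h.le a.2, fun g hg => ⟨_, ⟨⟨g, h.ge hg⟩, rfl⟩, rfl⟩⟩

end Cfsg.Agent.Pres
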